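import Mathlib

/-!
# S4414 call (helper68): piece statements

Mathematical proof of S4414 (only these hypotheses are used: `Sp` normal of order `p` or `p^2`
(so abelian of odd order), `|S₂ ⊔ Sq| = |S₂| * q`, `⁅Sp, Sq⁆ = Sp`, `Sp` faithful on `E`).

Put `V = Sp`, `H = S₂ ⊔ Sq` (order `2^a * q`), `k` = an algebraically closed field of
characteristic 2, `M = k ⊗ E` (TRANSFER).  Every `y ∈ H` of order `q` acts fixed-point-freely on
`V` (FPF).  `V` has a common eigenvector `w ≠ 0` in `M` with a NONTRIVIAL character `lam` (EIG).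
No `y ∈ H` of order `q` fixes `lam` (NOQ), so the stabiliser `T` of `lam` in `H` is a 2-group and
has a nonzero fixed vector `w0` in the `lam`-eigenspace (FIXV).  The `H`-orbit `B` of `w0`
consists of eigenvectors with pairwise different characters, so it is linearly independent
(INDEP), and `q ∣ |B|` (CARD).  Finally (SUMS) the `S₂`-orbit `O₁` of `w0` is not all of `B`
(its size is a power of 2), the sums over `O₁` and over `B \ O₁` are independent `S₂`-fixed
vectors, so `dim Fix(S₂) ≥ 2`, and if `dim = 2` and `Fix(S₂)` were `H`-invariant then `H`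
would permute `{O₁, B \ O₁}`, which is impossible (`|B|` is not a power of 2 and `H` is
transitive on `B`).
-/

namespace Cfsg.Agent.Lib.Helper68.FixStmt

universe u v

/-- The fixed-point submodule of a subgroup `T` under a representation. -/
def fixT {k : Type*} [Field k] {S : Type*} [Group S] {M : Type*} [AddCommGroup M] [Module k M]
    (ρ : Representation k S M) (T : Subgroup S) : Submodule k M where
  carrier := {m | ∀ t ∈ T, ρ t m = m}
  add_mem' := by
    intro a b ha hb t ht
    simp [ha t ht, hb t ht]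
  zero_mem' := by
    intro t _
    simp
  smul_mem' := by
    intro c m hm t ht
    simp [hm t ht]

theorem mem_fixT {k : Type*} [Field k] {S : Type*} [Group S] {M : Type*} [AddCommGroup M]
    [Module k M] (ρ : Representation k S M) (T : Subgroup S) (m : M) :
    m ∈ fixT ρ T ↔ ∀ t ∈ T, ρ t m = m := Iff.rfl

/-- EIG.  A finite abelian group `V` of odd order acting nontrivially on a finite-dimensional
space over an algebraically closed field of characteristic 2 has a common eigenvector whose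
character is nontrivial.
Proof: `e = |V|⁻¹ • ∑_{v ∈ V} ρ v` is an idempotent commuting with `V`, `M' = ker e` is
`V`-invariant and nonzero (else `e = 1` and `V` acts trivially), and no nonzero vector of `M'` is
fixed by `V`.  Take a minimal nonzero `V`-invariant subspace `M₀ ≤ M'`; for `v ∈ V` an eigenspace
of `ρ v` on `M₀` is nonzero and `V`-invariant (`V` abelian), so it is `M₀`: `ρ v` is a scalar
`lam v` on `M₀`.  Any `0 ≠ w ∈ M₀` works; `lam ≠ 1` on `V` since `w` is not fixed. -/
def EIG : Prop := ∀ (k : Type) [Field k] [IsAlgClosed k] [CharP k 2] (S : Type u) [Group S]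
    [Finite S] (M : Type v) [AddCommGroup M] [Module k M] [FiniteDimensional k M]
    (ρ : Representation k S M) (V : Subgroup S),
    (∀ x ∈ V, ∀ y ∈ V, x * y = y * x) → Odd (Nat.card V) → (∃ v ∈ V, ρ v ≠ 1) →
    ∃ (lam : S → k) (w : M), w ≠ 0 ∧ (∀ v ∈ V, ρ v w = lam v • w) ∧ ∃ v ∈ V, lam v ≠ 1

/-- NOQ.  If `y` acts fixed-point-freely on the abelian normal subgroup `V`, then `y` does not
fix the nontrivial character `lam` of a common eigenvector `w ≠ 0`.
Proof: `lam` is multiplicative on `V` (as `w ≠ 0`), `lam 1 = 1`.  The map `u ↦ u⁻¹ * (y⁻¹ * u * y)`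
of `V` is injective (fixed-point-freeness, `V` abelian), hence onto (`V` finite); if `y` fixed
`lam` then `lam` would be `1` on its image, i.e. on all of `V`. -/
def NOQ : Prop := ∀ (k : Type) [Field k] (S : Type u) [Group S] [Finite S]
    (M : Type v) [AddCommGroup M] [Module k M] (ρ : Representation k S M)
    (V : Subgroup S) (lam : S → k) (w : M) (y : S),
    V.Normal → (∀ x ∈ V, ∀ z ∈ V, x * z = z * x) →
    w ≠ 0 → (∀ v ∈ V, ρ v w = lam v • w) → (∃ v ∈ V, lam v ≠ 1) →
    (∀ v ∈ V, y * v * y⁻¹ = v → v = 1) →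
    ¬ ∀ v ∈ V, lam (y⁻¹ * v * y) = lam v

/-- FIXV.  The stabiliser `T = {h ∈ H | ∀ v ∈ V, lam (h⁻¹ v h) = lam v}` of `lam` in `H` is a
subgroup (use `V` normal) without elements of order `q`, so a 2-group (`|H| = 2^a * q`, Cauchy).
It maps the `lam`-eigenspace of `V` to itself (`ρ v (ρ t m) = ρ t (ρ (t⁻¹ v t) m)`).  The additive
subgroup generated by the `T`-orbit of `w` is finite of 2-power order (characteristic 2),
`T`-invariant, nonzero and inside the eigenspace; a 2-group acting on its nonzero elements (an odd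
number) has a fixed point `w0`. -/
def FIXV : Prop := ∀ (k : Type) [Field k] [CharP k 2] (S : Type u) [Group S] [Finite S]
    (M : Type v) [AddCommGroup M] [Module k M] (ρ : Representation k S M)
    (V H : Subgroup S) (lam : S → k) (w : M) (q a : ℕ),
    V.Normal → q.Prime → q ≠ 2 → Nat.card H = 2 ^ a * q →
    w ≠ 0 → (∀ v ∈ V, ρ v w = lam v • w) →
    (∀ y ∈ H, orderOf y = q → ¬ ∀ v ∈ V, lam (y⁻¹ * v * y) = lam v) →
    ∃ w0 : M, w0 ≠ 0 ∧ (∀ v ∈ V, ρ v w0 = lam v • w0) ∧
      ∀ h ∈ H, (∀ v ∈ V, lam (h⁻¹ * v * h) = lam v) → ρ h w0 = w0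

/-- INDEP.  The `H`-orbit of `w0` is linearly independent.
Proof: `ρ h w0` is a common eigenvector of `V` with character `v ↦ lam (h⁻¹ v h)`.  If
`ρ h w0` and `ρ h' w0` have the same character then `g = h⁻¹ h'` fixes `lam`, so `ρ g w0 = w0`
and `ρ h' w0 = ρ h w0`.  So distinct orbit points are nonzero common eigenvectors with distinct
characters, and such vectors are linearly independent (minimal dependency argument). -/
def INDEP : Prop := ∀ (k : Type) [Field k] (S : Type u) [Group S] [Finite S]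
    (M : Type v) [AddCommGroup M] [Module k M] (ρ : Representation k S M)
    (V H : Subgroup S) (lam : S → k) (w0 : M),
    V.Normal → w0 ≠ 0 → (∀ v ∈ V, ρ v w0 = lam v • w0) →
    (∀ h ∈ H, (∀ v ∈ V, lam (h⁻¹ * v * h) = lam v) → ρ h w0 = w0) →
    LinearIndependent k (fun b : {m : M // ∃ h ∈ H, ρ h w0 = m} => (b : M))

/-- CARD.  `q` divides the size of the `H`-orbit of `w0`.
Proof: if `h ∈ H` fixes `w0` then `lam (h⁻¹ v h) • w0 = ρ v (ρ h w0) = lam v • w0`, so `h` fixes
`lam`; hence the stabiliser `St` of `w0` in `H` has no element of order `q`, `q ∤ |St|` (Cauchy),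
and `|orbit| * |St| = |H| = 2^a * q`. -/
def CARD : Prop := ∀ (k : Type) [Field k] (S : Type u) [Group S] [Finite S]
    (M : Type v) [AddCommGroup M] [Module k M] (ρ : Representation k S M)
    (V H : Subgroup S) (lam : S → k) (w0 : M) (q a : ℕ),
    V.Normal → q.Prime → q ≠ 2 → Nat.card H = 2 ^ a * q →
    w0 ≠ 0 → (∀ v ∈ V, ρ v w0 = lam v • w0) →
    (∀ y ∈ H, orderOf y = q → ¬ ∀ v ∈ V, lam (y⁻¹ * v * y) = lam v) →
    q ∣ Nat.card {m : M // ∃ h ∈ H, ρ h w0 = m}

/-- SUMS (pure permutation-module statement).  Let `B` be the `H`-orbit of `w0`, linearly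
independent, `q ∣ |B|` with `q` an odd prime, `T2 ≤ H` a 2-group.  Then
`dim Fix(T2) ≥ 3`, or `dim Fix(T2) = 2` and `Fix(T2)` is not `H`-invariant.
Proof: `O₁` = the `T2`-orbit of `w0` has 2-power size, so `O₁ ≠ B`; `Z = B \ O₁ ≠ ∅`.  `T2`
permutes `O₁` and `Z`, so `u₁ = ∑_{b ∈ O₁} b`, `u₂ = ∑_{b ∈ Z} b` are fixed by `T2`, and they are
linearly independent: `dim ≥ 2`.  If `dim = 2` then `Fix(T2) = span {u₁, u₂}`; if it were
`H`-invariant, then for `h ∈ H` the vector `ρ h u₁ = ∑_{b ∈ h O₁} b` is `c₁ u₁ + c₂ u₂`, so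
(independence of `B`, `|h O₁| = |O₁| < |B|`) `h O₁ = O₁` or `h O₁ = Z`.  If `h O₁ = Z` for some
`h` then `|B| = 2 |O₁|` is a power of 2, contradicting `q ∣ |B|`; otherwise `h O₁ = O₁` for all
`h ∈ H`, contradicting that every point of `Z` is `ρ h w0` with `w0 ∈ O₁`. -/
def SUMS : Prop := ∀ (k : Type) [Field k] (S : Type u) [Group S] [Finite S]
    (M : Type v) [AddCommGroup M] [Module k M] [FiniteDimensional k M] (ρ : Representation k S M)
    (H T2 : Subgroup S) (w0 : M) (q a : ℕ),
    T2 ≤ H → Nat.card T2 = 2 ^ a → q.Prime → q ≠ 2 →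
    LinearIndependent k (fun b : {m : M // ∃ h ∈ H, ρ h w0 = m} => (b : M)) →
    q ∣ Nat.card {m : M // ∃ h ∈ H, ρ h w0 = m} →
    3 ≤ Module.finrank k (fixT ρ T2) ∨
      (Module.finrank k (fixT ρ T2) = 2 ∧ ¬ ∀ h ∈ H, ∀ m ∈ fixT ρ T2, ρ h m ∈ fixT ρ T2)

/-- TRANSFER (base change).  Take `k = AlgebraicClosure (ZMod 2)`, `M = k ⊗[ZMod 2] E`,
`ρ' s = (ρ s).baseChange k`.  With an `F₂`-basis `(κ_i)` of `k`, `M ≃ (ι →₀ E)`
(`TensorProduct.equivFinsuppOfBasisLeft`) and `ρ' s` acts coordinatewise; hence `m` is fixed by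
`T` iff all its coordinates are, i.e. `Fix_M(T) = k ⊗ Fix_E(T)` (same dimension), and invariance
of `Fix_E(T)` under `ρ x` passes to `Fix_M(T)`; `e ↦ 1 ⊗ e` is injective, so `ρ' s = 1`
implies `ρ s = 1`. -/
def TRANSFER : Prop := ∀ (S : Type u) [Group S] [Finite S] (E : Type v) [AddCommGroup E]
    [Module (ZMod 2) E] [Finite E] (ρ : Representation (ZMod 2) S E),
    ∃ (k : Type) (_ : Field k) (_ : IsAlgClosed k) (_ : CharP k 2) (M : Type v)
      (_ : AddCommGroup M) (_ : Module k M) (_ : FiniteDimensional k M)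
      (ρ' : Representation k S M),
      (∀ s : S, ρ' s = 1 → ρ s = 1) ∧
      (∀ T : Subgroup S,
        Module.finrank k (fixT ρ' T) = Module.finrank (ZMod 2) (fixT ρ T)) ∧
      (∀ (T : Subgroup S) (x : S), (∀ e ∈ fixT ρ T, ρ x e ∈ fixT ρ T) →
        ∀ m ∈ fixT ρ' T, ρ' x m ∈ fixT ρ' T)

/-- FPF.  If `⁅V, Q⁆ = V` for an abelian normal `V` and a Sylow `q`-subgroup `Q` of order `q`
with `q ∤ |V|`, then every element `y` of order `q` acts fixed-point-freely on `V`.
Proof: `⟨y⟩` has order `q`, so it is a Sylow `q`-subgroup, `⟨y⟩ = g Q g⁻¹`; it suffices to treat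
a generator `x` of `Q` (conjugate by `g`, `V` normal).  `τ(v) = ∏_{i<q} x^i v x^{-i}` is a
homomorphism `V → V` (abelian) with `τ(v⁻¹ x v x⁻¹) = 1`, so `τ = 1` on `⁅V, Q⁆ = V`; for `c`
fixed by `x`, `τ(c) = c^q = 1`, and `c^{|V|} = 1` with `gcd(q, |V|) = 1` gives `c = 1`. -/
def FPF : Prop := ∀ (S : Type u) [Group S] [Finite S] (q : ℕ) [Fact q.Prime] (V : Subgroup S)
    (Q : Sylow q S) (y : S),
    V.Normal → (∀ x ∈ V, ∀ z ∈ V, x * z = z * x) → Nat.card Q = q → ¬ q ∣ Nat.card V →
    ⁅V, (Q : Subgroup S)⁆ = V → orderOf y = q → ∀ v ∈ V, y * v * y⁻¹ = v → v = 1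

end Cfsg.Agent.Lib.Helper68.FixStmt
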