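import Cfsg.Agent.Lib.Helper68.FixStmt

/-! # S4414 assembly (helper68): the pieces of `FixStmt` give the statement. -/

namespace Cfsg.Agent.Lib.Helper68.FixAsm

open Cfsg.Agent.Lib.Helper68.FixStmt

universe u v

/-- The generic statement over an algebraically closed field of characteristic 2. -/
theorem kgen (hEIG : EIG.{u, v}) (hNOQ : NOQ.{u, v}) (hFIXV : FIXV.{u, v})
    (hINDEP : INDEP.{u, v}) (hCARD : CARD.{u, v}) (hSUMS : SUMS.{u, v})
    (k : Type) [Field k] [IsAlgClosed k] [CharP k 2] (S : Type u) [Group S] [Finite S]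
    (M : Type v) [AddCommGroup M] [Module k M] [FiniteDimensional k M] (ρ : Representation k S M)
    (V H T2 : Subgroup S) (q a : ℕ)
    (hVn : V.Normal) (hVc : ∀ x ∈ V, ∀ y ∈ V, x * y = y * x) (hVodd : Odd (Nat.card V))
    (hT2H : T2 ≤ H) (hT2 : Nat.card T2 = 2 ^ a) (hH : Nat.card H = 2 ^ a * q) (hq : q.Prime)
    (hq2 : q ≠ 2)
    (hfpf : ∀ y ∈ H, orderOf y = q → ∀ v ∈ V, y * v * y⁻¹ = v → v = 1)
    (hnt : ∃ v ∈ V, ρ v ≠ 1) :
    3 ≤ Module.finrank k (fixT ρ T2) ∨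
      (Module.finrank k (fixT ρ T2) = 2 ∧ ¬ ∀ h ∈ H, ∀ m ∈ fixT ρ T2, ρ h m ∈ fixT ρ T2) := by
  obtain ⟨lam, w, hw, hev, hlam⟩ := hEIG k S M ρ V hVc hVodd hnt
  have hno : ∀ y ∈ H, orderOf y = q → ¬ ∀ v ∈ V, lam (y⁻¹ * v * y) = lam v := fun y hy hyq =>
    hNOQ k S M ρ V lam w y hVn hVc hw hev hlam (hfpf y hy hyq)
  obtain ⟨w0, hw0, hev0, hfix0⟩ := hFIXV k S M ρ V H lam w q a hVn hq hq2 hH hw hev hno
  have hind := hINDEP k S M ρ V H lam w0 hVn hw0 hev0 hfix0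
  have hcard := hCARD k S M ρ V H lam w0 q a hVn hq hq2 hH hw0 hev0 hno
  exact hSUMS k S M ρ H T2 w0 q a hT2H hT2 hq hq2 hind hcard

/-- the set of group elements preserving a submodule is a subgroup (finite group). -/
theorem mem_of_le_stab {k : Type*} [Field k] {S : Type*} [Group S] [Finite S] {M : Type*}
    [AddCommGroup M] [Module k M] (ρ : Representation k S M) (F : Submodule k M)
    (A B : Subgroup S) (hA : ∀ h ∈ A, ∀ m ∈ F, ρ h m ∈ F) (hB : ∀ h ∈ B, ∀ m ∈ F, ρ h m ∈ F) :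
    ∀ h ∈ A ⊔ B, ∀ m ∈ F, ρ h m ∈ F := by
  have hpow : ∀ (h : S), (∀ m ∈ F, ρ h m ∈ F) → ∀ n : ℕ, ∀ m ∈ F, ρ (h ^ n) m ∈ F := by
    intro h hh n
    induction n with
    | zero => intro m hm; simpa using hm
    | succ n ih =>
      intro m hm
      rw [pow_succ, map_mul]
      exact ih _ (hh m hm)
  let P : Subgroup S :=
    { carrier := {h | ∀ m ∈ F, ρ h m ∈ F}
      one_mem' := by intro m hm; simpa using hm
      mul_mem' := by
        intro x y hx hy m hm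
        rw [map_mul]
        exact hx _ (hy m hm)
      inv_mem' := by
        intro x hx
        have h1 : x⁻¹ = x ^ (Nat.card S - 1) := by
          have hc : 0 < Nat.card S := Nat.card_pos
          have h2 : x * x ^ (Nat.card S - 1) = 1 := by
            rw [← pow_succ', Nat.sub_add_cancel hc, pow_card_eq_one']
          exact (eq_inv_of_mul_eq_one_right h2).symm ▸ rfl
        show ∀ m ∈ F, ρ x⁻¹ m ∈ F
        rw [h1]
        exact hpow x hx _ }
  have hAP : A ≤ P := fun h hh => hA h hh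
  have hBP : B ≤ P := fun h hh => hB h hh
  intro h hh
  exact (sup_le hAP hBP) hh

/-- S4414 from the pieces. -/
theorem final (hEIG : EIG.{u, v}) (hNOQ : NOQ.{u, v}) (hFIXV : FIXV.{u, v})
    (hINDEP : INDEP.{u, v}) (hCARD : CARD.{u, v}) (hSUMS : SUMS.{u, v})
    (hTR : TRANSFER.{u, v}) (hFPF : FPF.{u})
    {S : Type u} [Group S] [Finite S] (p q : ℕ) (hp : p.Prime) (hq : q.Prime) (hp2 : p ≠ 2)
    (hq2 : q ≠ 2) (hpq : p ≠ q)
    (S₂ : Sylow 2 S) (Sp : Sylow p S) (Sq : Sylow q S)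
    (h2q : Nat.card ↥((S₂ : Subgroup S) ⊔ (Sq : Subgroup S)) = Nat.card ↥S₂ * Nat.card ↥Sq)
    (hSpN : (Sp : Subgroup S).Normal)
    (hSpcard : Nat.card ↥Sp = p ∨ Nat.card ↥Sp = p ^ 2)
    (hSq : Nat.card ↥Sq = q)
    (hcomm : ⁅(Sp : Subgroup S), (Sq : Subgroup S)⁆ = (Sp : Subgroup S))
    {E : Type v} [AddCommGroup E] [Module (ZMod 2) E] [Finite E]
    (ρ : Representation (ZMod 2) S E)
    (hfaith : ∀ x ∈ (Sp : Subgroup S), ρ x = 1 → x = 1) :
    8 ≤ Nat.card {v : E // ∀ s ∈ (S₂ : Subgroup S), ρ s v = v} ∨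
      (Nat.card {v : E // ∀ s ∈ (S₂ : Subgroup S), ρ s v = v} = 4 ∧
        ∃ x ∈ (Sq : Subgroup S), ∃ v : E, (∀ s ∈ (S₂ : Subgroup S), ρ s v = v) ∧
          ¬ ∀ s ∈ (S₂ : Subgroup S), ρ s (ρ x v) = ρ x v) := by
  classical
  have : Fact q.Prime := ⟨hq⟩
  have : Fact p.Prime := ⟨hp⟩
  have : Fact (Nat.Prime 2) := ⟨Nat.prime_two⟩
  obtain ⟨k, iF, iA, iC, M, iM1, iM2, iM3, ρ', htr1, htr2, htr3⟩ := hTR S E ρ
  obtain ⟨a, ha0⟩ := IsPGroup.iff_card.mp S₂.isPGroup'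
  have ha : Nat.card ↥(S₂ : Subgroup S) = 2 ^ a := ha0
  have hSpcard' : Nat.card ↥(Sp : Subgroup S) = p ∨ Nat.card ↥(Sp : Subgroup S) = p ^ 2 :=
    hSpcard
  have hHcard : Nat.card ↥((S₂ : Subgroup S) ⊔ (Sq : Subgroup S)) = 2 ^ a * q := by
    rw [h2q, hSq]
    congr 1
  -- V commutative
  have hVc : ∀ x ∈ (Sp : Subgroup S), ∀ y ∈ (Sp : Subgroup S), x * y = y * x := by
    intro x hx y hy
    have hcomm' : ∀ a b : ↥(Sp : Subgroup S), a * b = b * a := by
      rcases hSpcard' with h1 | h1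
      · have : IsCyclic ↥(Sp : Subgroup S) := isCyclic_of_prime_card (p := p) h1
        intro a b
        exact (IsCyclic.commGroup (α := ↥(Sp : Subgroup S))).mul_comm a b
      · intro a b
        exact (IsPGroup.isMulCommutative_of_card_eq_prime_sq (p := p) h1).is_comm.comm a b
    have := hcomm' ⟨x, hx⟩ ⟨y, hy⟩
    exact congrArg Subtype.val this
  have hpodd : Odd p := hp.odd_of_ne_two hp2
  have hVodd : Odd (Nat.card ↥(Sp : Subgroup S)) := by
    rcases hSpcard' with h1 | h1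
    · rw [h1]; exact hpodd
    · rw [h1]; exact hpodd.pow
  have hqV : ¬ q ∣ Nat.card ↥(Sp : Subgroup S) := by
    intro hdvd
    have hqp : q ∣ p := by
      rcases hSpcard' with h1 | h1
      · rwa [h1] at hdvd
      · rw [h1] at hdvd; exact hq.dvd_of_dvd_pow hdvd
    exact hpq ((Nat.prime_dvd_prime_iff_eq hq hp).mp hqp).symm
  have hfpf : ∀ y ∈ (S₂ : Subgroup S) ⊔ (Sq : Subgroup S), orderOf y = q →
      ∀ v ∈ (Sp : Subgroup S), y * v * y⁻¹ = v → v = 1 := fun y _ hyq =>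
    hFPF S q (Sp : Subgroup S) Sq y hSpN hVc hSq hqV hcomm hyq
  have hnt : ∃ v ∈ (Sp : Subgroup S), ρ' v ≠ 1 := by
    have h1lt : 1 < Nat.card ↥(Sp : Subgroup S) := by
      rcases hSpcard' with h1 | h1
      · rw [h1]; exact hp.one_lt
      · rw [h1]; exact Nat.one_lt_pow (by norm_num) hp.one_lt
    have : Nontrivial ↥(Sp : Subgroup S) := (Finite.one_lt_card_iff_nontrivial).mp h1lt
    obtain ⟨v, hv⟩ := exists_ne (1 : ↥(Sp : Subgroup S))
    refine ⟨v.1, v.2, fun h => hv ?_⟩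
    have := hfaith v.1 v.2 (htr1 v.1 h)
    exact Subtype.ext this
  have key := kgen hEIG hNOQ hFIXV hINDEP hCARD hSUMS k S M ρ' (Sp : Subgroup S)
    ((S₂ : Subgroup S) ⊔ (Sq : Subgroup S)) (S₂ : Subgroup S) q a hSpN hVc hVodd le_sup_left ha
    hHcard hq hq2 hfpf hnt
  rw [htr2] at key
  have hcardfix : Nat.card {v : E // ∀ s ∈ (S₂ : Subgroup S), ρ s v = v} =
      2 ^ Module.finrank (ZMod 2) (fixT ρ (S₂ : Subgroup S)) := by
    have h1 : Nat.card {v : E // ∀ s ∈ (S₂ : Subgroup S), ρ s v = v} =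
        Nat.card ↥(fixT ρ (S₂ : Subgroup S)) :=
      Nat.card_congr (Equiv.subtypeEquivRight (fun v => Iff.rfl))
    rw [h1, Module.natCard_eq_pow_finrank (K := ZMod 2), Nat.card_zmod]
  rcases key with h3 | ⟨h2, hninv⟩
  · left
    rw [hcardfix]
    calc 8 = 2 ^ 3 := by norm_num
      _ ≤ 2 ^ Module.finrank (ZMod 2) (fixT ρ (S₂ : Subgroup S)) :=
        Nat.pow_le_pow_right (by norm_num) h3
  · right
    refine ⟨by rw [hcardfix, h2]; norm_num, ?_⟩
    by_contra hcon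
    apply hninv
    apply mem_of_le_stab ρ' (fixT ρ' (S₂ : Subgroup S)) (S₂ : Subgroup S) (Sq : Subgroup S)
    · intro h hh m hm
      have : ρ' h m = m := hm h hh
      rw [this]; exact hm
    · intro x hx
      apply htr3 (S₂ : Subgroup S) x
      intro e he
      by_contra hne
      apply hcon
      refine ⟨x, hx, e, he, ?_⟩
      intro hall
      exact hne hall

end Cfsg.Agent.Lib.Helper68.FixAsm
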