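import Mathlib
import Cfsg.Agent.Lib.Helper68.ExcFive
import Cfsg.Agent.Lib.Helper17.EvenEq
import Cfsg.Agent.Lib.Helper17.EvenAux
import Cfsg.Agent.Lib.Helper17.EvenMain
import Cfsg.Agent.Lib.Helper17.ExcSimple
import Cfsg.Agent.Lib.Helper58.Kazarin

/-!
Order 5760 = 2^7 * 3^2 * 5.

* `no_comm_3_5`: in a simple group of order 5760 no element of order 3 commutes with an element
  of order 5 (its centralizer would have 2-power index; Burnside/Kazarin).
* `case576`: the case of 576 Sylow 5-subgroups (`N(P)` dihedral of order 10) via exceptional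
  characters for `p = 5` and the class equation of a 2-central involution.
-/

set_option autoImplicit false
set_option linter.style.haveILetI false

namespace Cfsg.Agent.Lib.Helper68.O5760

open Cfsg Subgroup
open Cfsg.Agent.Lib.CT.Orth Cfsg.Agent.Lib.CT.Wedderburn
open Cfsg.Agent.Lib.Helper17.ExcOrb Cfsg.Agent.Lib.Helper17.ExcMain
open Cfsg.Agent.Lib.Helper17.ExcCor Cfsg.Agent.Lib.Helper17.ExcSimple
open Cfsg.Agent.Lib.Helper17.ExcInv Cfsg.Agent.Lib.Helper17.Sylow2
open Cfsg.Agent.Lib.Helper17.Sylow Cfsg.Agent.Lib.Helper68.ExcFive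

/-- In a simple group of order 5760, no element of order 3 commutes with an element of
order 5. -/
theorem no_comm_3_5 {G : Type*} [Group G] [Finite G] [IsSimpleGroup G]
    (hG : ¬ IsMulCommutative G) (h : Nat.card G = 5760) (x y : G) (hx : orderOf x = 3)
    (hy : orderOf y = 5) (hxy : Commute x y) : False := by
  haveI : Fact (Nat.Prime 3) := ⟨by norm_num⟩
  have hpg : IsPGroup 3 (zpowers x) :=
    IsPGroup.of_card (n := 1) (by rw [Nat.card_zpowers, hx, pow_one])
  obtain ⟨Q, hQ⟩ := hpg.exists_le_sylow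
  have hQ9 : Nat.card (Q : Subgroup G) = 3 ^ 2 :=
    card_sylow_subgroup (p := 3) (k := 2) (m := 640) (h.trans (by norm_num)) (by norm_num) Q
  have hcomm := isMulCommutative_iff.mp
    (IsPGroup.isMulCommutative_of_card_eq_prime_sq (p := 3) (G := (Q : Subgroup G)) hQ9)
  have hxQ : x ∈ (Q : Subgroup G) := hQ (mem_zpowers x)
  have hQle : (Q : Subgroup G) ≤ centralizer ({x} : Set G) := by
    intro q hq
    rw [mem_centralizer_singleton_iff]
    exact congrArg Subtype.val (hcomm ⟨q, hq⟩ ⟨x, hxQ⟩)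
  have hyC : y ∈ centralizer ({x} : Set G) := by
    rw [mem_centralizer_singleton_iff]
    exact hxy.eq.symm
  have h9 : 9 ∣ Nat.card (centralizer ({x} : Set G)) := by
    have := Subgroup.card_dvd_of_le hQle
    rwa [hQ9] at this
  have h5 : 5 ∣ Nat.card (centralizer ({x} : Set G)) := by
    have := orderOf_dvd_card_of_mem hyC
    rwa [hy] at this
  have h45 : 45 ∣ Nat.card (centralizer ({x} : Set G)) :=
    Nat.Coprime.mul_dvd_of_dvd_of_dvd (by norm_num : Nat.Coprime 9 5) h9 h5
  have hidx : (centralizer ({x} : Set G)).index * Nat.card (centralizer ({x} : Set G))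
      = 5760 := by
    rw [← h]
    exact Subgroup.index_mul_card _
  have hdvd : (centralizer ({x} : Set G)).index ∣ 2 ^ 7 := by
    obtain ⟨k, hk⟩ := h45
    rw [hk] at hidx
    have h1 : 45 * ((centralizer ({x} : Set G)).index * k) = 45 * 128 := by
      calc 45 * ((centralizer ({x} : Set G)).index * k)
          = (centralizer ({x} : Set G)).index * (45 * k) := by ring
        _ = 5760 := hidx
        _ = 45 * 128 := by norm_num
    have h2 : (centralizer ({x} : Set G)).index * k = 128 :=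
      Nat.eq_of_mul_eq_mul_left (by norm_num) h1
    exact ⟨k, by rw [h2]; norm_num⟩
  obtain ⟨a, -, ha⟩ := (Nat.dvd_prime_pow Nat.prime_two).mp hdvd
  have hsol := Cfsg.Agent.Lib.Helper58.Kazarin.solvable_of_index 2 Nat.prime_two 3 x a hx ha
  have hx1 : x ≠ 1 := by
    rintro rfl
    simp at hx
  have htop : normalClosure ({x} : Set G) = ⊤ := by
    rcases (normalClosure_normal (s := ({x} : Set G))).eq_bot_or_eq_top with hb | ht
    · exfalso
      have h1 : x ∈ normalClosure ({x} : Set G) := subset_normalClosure (Set.mem_singleton x)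
      rw [hb, mem_bot] at h1
      exact hx1 h1
    · exact ht
  rw [htop] at hsol
  have hsolG : Group.IsSolvable G := by
    haveI := hsol
    exact Group.isSolvable_of_surjective (f := (⊤ : Subgroup G).subtype)
      (fun g => ⟨⟨g, mem_top g⟩, rfl⟩)
  exact hG (isMulCommutative_iff.mpr (IsSimpleGroup.comm_iff_isSolvable.mpr hsolG))

/-- `a c² = 480 w²` has no solution with `1 ≤ a < 10`, `c > 0`. -/
theorem sq_lemma43 (a c : ℕ) (w : ℤ) (ha1 : 1 ≤ a) (ha : a < 10) (hc : 0 < c)
    (h : ((a * c ^ 2 : ℕ) : ℤ) = 480 * w ^ 2) : False := by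
  have hw : w ^ 2 = ((w.natAbs ^ 2 : ℕ) : ℤ) := by
    push_cast
    exact (sq_abs w).symm
  rw [hw] at h
  have h' : a * c ^ 2 = 480 * w.natAbs ^ 2 := by exact_mod_cast h
  obtain ⟨m, hm⟩ : ∃ m : ℕ, m = w.natAbs := ⟨_, rfl⟩
  rw [← hm] at h'
  have hm0 : m ≠ 0 := by
    rintro rfl
    have : 0 < a * c ^ 2 := by positivity
    omega
  haveI : Fact (Nat.Prime 5) := ⟨by norm_num⟩
  haveI : Fact (Nat.Prime 3) := ⟨by norm_num⟩
  have ha0 : a ≠ 0 := by omega
  have hc0 : c ≠ 0 := by omega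
  have e5 := congrArg (padicValNat 5) h'
  rw [padicValNat.mul ha0 (pow_ne_zero 2 hc0), padicValNat.pow c 2,
    padicValNat.mul (by norm_num) (pow_ne_zero 2 hm0), padicValNat.pow m 2] at e5
  have h480 : padicValNat 5 480 = 1 := by
    have : (480 : ℕ) = 5 * 96 := by norm_num
    rw [this, padicValNat.mul (by norm_num) (by norm_num), padicValNat_self,
      padicValNat.eq_zero_of_not_dvd (by norm_num)]
  rw [h480] at e5
  have ha5 : 5 ∣ a := by
    apply dvd_of_one_le_padicValNat
    omega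
  have e3 := congrArg (padicValNat 3) h'
  rw [padicValNat.mul ha0 (pow_ne_zero 2 hc0), padicValNat.pow c 2,
    padicValNat.mul (by norm_num) (pow_ne_zero 2 hm0), padicValNat.pow m 2] at e3
  have h480' : padicValNat 3 480 = 1 := by
    have : (480 : ℕ) = 3 * 160 := by norm_num
    rw [this, padicValNat.mul (by norm_num) (by norm_num), padicValNat_self,
      padicValNat.eq_zero_of_not_dvd (by norm_num)]
  rw [h480'] at e3
  have ha3 : 3 ∣ a := by
    apply dvd_of_one_le_padicValNat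
    omega
  omega

/-- `a c² = 80 w²` with `1 ≤ a < 10`, `c > 0` forces `c² = 16 w²`. -/
theorem sq_lemma98 (a c : ℕ) (w : ℤ) (ha1 : 1 ≤ a) (ha : a < 10) (hc : 0 < c)
    (h : ((a * c ^ 2 : ℕ) : ℤ) = 80 * w ^ 2) : (c : ℤ) ^ 2 = 16 * w ^ 2 := by
  have hw : w ^ 2 = ((w.natAbs ^ 2 : ℕ) : ℤ) := by
    push_cast
    exact (sq_abs w).symm
  rw [hw] at h ⊢
  have h' : a * c ^ 2 = 80 * w.natAbs ^ 2 := by exact_mod_cast h
  obtain ⟨m, hm⟩ : ∃ m : ℕ, m = w.natAbs := ⟨_, rfl⟩
  rw [← hm] at h' ⊢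
  have hm0 : m ≠ 0 := by
    rintro rfl
    have : 0 < a * c ^ 2 := by positivity
    omega
  haveI : Fact (Nat.Prime 5) := ⟨by norm_num⟩
  have ha0 : a ≠ 0 := by omega
  have hc0 : c ≠ 0 := by omega
  have e5 := congrArg (padicValNat 5) h'
  rw [padicValNat.mul ha0 (pow_ne_zero 2 hc0), padicValNat.pow c 2,
    padicValNat.mul (by norm_num) (pow_ne_zero 2 hm0), padicValNat.pow m 2] at e5
  have h80 : padicValNat 5 80 = 1 := by
    have : (80 : ℕ) = 5 * 16 := by norm_num
    rw [this, padicValNat.mul (by norm_num) (by norm_num), padicValNat_self,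
      padicValNat.eq_zero_of_not_dvd (by norm_num)]
  rw [h80] at e5
  have ha5 : 5 ∣ a := by
    apply dvd_of_one_le_padicValNat
    omega
  have ha5' : a = 5 := by omega
  subst ha5'
  have h'' : c ^ 2 = 16 * m ^ 2 := by omega
  exact_mod_cast h''

theorem key : ∀ D ∈ Nat.divisors 5760, D ≠ 1 →
    (D % 5 = 1 → ¬ (D + 1 ∣ 5760)) ∧ (D % 5 = 4 → D - 1 ∣ 5760 → D = 4 ∨ D = 9) := by
  decide +kernel

/-- No simple group of order 5760 has a self-centralizing Sylow 5-subgroup with normalizer of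
order 10. -/
theorem case576 {G : Type*} [Group G] [Finite G] [IsSimpleGroup G]
    (hG : ¬ IsMulCommutative G) (h : Nat.card G = 5760) (P : Sylow 5 G)
    (hP : Nat.card (P : Subgroup G) = 5)
    (hC : Nat.card (centralizer ((P : Subgroup G) : Set G)) = 5)
    (hN : Nat.card (normalizer ((P : Subgroup G) : Set G)) = 5 * 2) : False := by
  classical
  haveI : Fintype G := Fintype.ofFinite G
  haveI : Finite (IrrCharacter G) := finite_irrCharacter G
  haveI : Fintype (IrrCharacter G) := Fintype.ofFinite _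
  have hp5 : Nat.Prime 5 := by norm_num
  have hCle := centralizer_le_of_card (P : Subgroup G) hp5 hP hC
  obtain ⟨n, ε, δ, θ, χ, i₀, hε, hδ, hχT, hθχ, hθT, ⟨a, ha⟩, heq, hθvan, hθone, hform⟩ :=
    exceptional_five (P : Subgroup G) hP hCle hN
  have hD1 := charDegree_ne_one hG χ hχT
  have hDdvd := Cfsg.Agent.Lib.Helper80.Integrality.charDegree_dvd_card χ
  have hddvd := Cfsg.Agent.Lib.Helper80.Integrality.charDegree_dvd_card (θ i₀)
  rw [h] at hDdvd hddvd
  have hDpos := irr_charDegree_pos χ.2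
  have hdpos := irr_charDegree_pos (θ i₀).2
  obtain ⟨z, hz, hzc⟩ := Cfsg.Agent.Lib.Helper17.EvenMain.exists_central_involution (G := G)
    128 7 (by norm_num) (by norm_num) 45 (h.trans (by norm_num)) (by norm_num)
  obtain ⟨y, hyP, hy1⟩ := exists_mem_ne_one (P : Subgroup G) hp5 hP
  obtain ⟨u, a', hχz, hθz, ha2, -, hmain⟩ :=
    Cfsg.Agent.Lib.Helper17.EvenEq.involution_equation' (P : Subgroup G) hp5 hP (by norm_num)
      ε δ θ χ i₀ hε hθvan hθone hform z hz y hyP hy1
  have hsq := Cfsg.Agent.Lib.Helper17.EvenAux.sq_add_one_le χ hχT z u hχz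
  obtain ⟨D, hDdef⟩ : ∃ D, D = charDegree (χ : G → ℂ) := ⟨_, rfl⟩
  obtain ⟨d, hddef⟩ : ∃ d, d = charDegree ((θ i₀ : IrrCharacter G) : G → ℂ) := ⟨_, rfl⟩
  obtain ⟨c, hcdef⟩ : ∃ c, c = Nat.card (centralizer ({z} : Set G)) := ⟨_, rfl⟩
  have hcpos : 0 < c := hcdef ▸ Nat.card_pos
  rw [← hDdef] at hD1 hDdvd hDpos ha heq hmain
  rw [← hddef] at hddvd hdpos heq hmain
  rw [← hcdef, h] at hmain
  rw [← hcdef] at hsq hzc
  rw [hN] at ha2
  have hk := key D (Nat.mem_divisors.mpr ⟨hDdvd, by norm_num⟩) hD1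
  have hfaith : u ≠ (D : ℤ) := by
    intro hu
    have h1 : (χ : G → ℂ) z = (χ : G → ℂ) 1 := by
      rw [hχz, deg_eq χ, ← hDdef, hu, Int.cast_natCast]
    have h2 := Cfsg.Agent.Lib.Helper17.EvenInv.faithful_of_simple hG χ hχT z h1
    rw [h2, orderOf_one] at hz
    omega
  have hc128 : (128 : ℤ) ≤ c := by exact_mod_cast Nat.le_of_dvd hcpos hzc
  have hvals : δ = -1 ∧ ε = -1 ∧ ((D = 4 ∧ d = 3) ∨ (D = 9 ∧ d = 8)) := by
    rcases hδ with rfl | rfl <;> rcases hε with rfl | rfl
    · exfalso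
      have h1 : D % 5 = 1 := by omega
      have h2 : d = D + 1 := by omega
      exact hk.1 h1 (h2 ▸ hddvd)
    · exfalso; omega
    · exfalso; omega
    · have h1 : D % 5 = 4 := by omega
      have h2 : D - 1 = d := by omega
      have h3 := hk.2 h1 (h2 ▸ hddvd)
      refine ⟨rfl, rfl, ?_⟩
      rcases h3 with h3 | h3
      · left; exact ⟨h3, by omega⟩
      · right; exact ⟨h3, by omega⟩
  obtain ⟨rfl, rfl, hDd⟩ := hvals
  rcases hDd with ⟨rfl, rfl⟩ | ⟨rfl, rfl⟩
  · -- degrees (4, 3)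
    rcases Nat.eq_zero_or_pos a' with ha0 | ha0
    · subst ha0
      push_cast at hmain
      have h1 : (u - 4) ^ 2 = 0 := by linarith
      have h2 : u - 4 = 0 := by simpa using h1
      exact hfaith (by push_cast; linarith)
    · apply sq_lemma43 a' c (u - 4) ha0 (by omega) hcpos
      push_cast at hmain ⊢
      linarith
  · -- degrees (9, 8)
    rcases Nat.eq_zero_or_pos a' with ha0 | ha0
    · subst ha0
      push_cast at hmain
      have h1 : (u - 9) ^ 2 = 0 := by linarith
      have h2 : u - 9 = 0 := by simpa using h1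
      exact hfaith (by push_cast; linarith)
    · have h16 := sq_lemma98 a' c (u - 9) ha0 (by omega) hcpos (by
        push_cast at hmain ⊢
        linarith)
      have h16' : (c : ℤ) ^ 2 = (4 * (u - 9)) ^ 2 := by rw [h16]; ring
      rcases sq_eq_sq_iff_eq_or_eq_neg.mp h16' with h1 | h1
      · nlinarith
      · nlinarith

end Cfsg.Agent.Lib.Helper68.O5760
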