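import Cfsg.Agent.Lib.Helper18.ReeHallStmt

/-!
# Small Ree groups, piece KT: numbers of elements of order `i ∣ q ∓ r + 1`
-/

set_option autoImplicit false

namespace Cfsg.Agent.Lib.Helper68.RHKT

open Cfsg.Agent.Lib.Helper42.ReeSpStmt Cfsg.Agent.Lib.Helper18.ReeHallStmt

universe u

/-! ## arithmetic -/

theorem torus_prod (q r : ℕ) (hrq : r ≤ q) (h : r ^ 2 = 3 * q) :
    (q + r + 1) * (q - r + 1) + q = q ^ 2 + 1 := by
  obtain ⟨d, rfl⟩ := Nat.exists_eq_add_of_le hrq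
  rw [Nat.add_sub_cancel_left]
  nlinarith [h]

theorem cop_lemma (q X : ℕ) (hq : 2 ≤ q) (h3 : 3 ∣ q) (hX : X + q = q ^ 2 + 1) :
    Nat.Coprime X (q * (q ^ 2 - 1)) := by
  obtain ⟨s, rfl⟩ : ∃ s, q = s + 2 := ⟨q - 2, by omega⟩
  have hXs : X = s ^ 2 + 3 * s + 3 := by nlinarith
  have e1 : X = (s + 2) * (s + 1) + 1 := by rw [hXs]; ring
  have e2 : X = (s + 1) * (s + 2) + 1 := by rw [hXs]; ring
  have e3 : X = (s + 3) * s + 3 := by rw [hXs]; ring
  have e4 : (s + 2) ^ 2 - 1 = (s + 1) * (s + 3) := by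
    have h5 : (s + 2) ^ 2 = (s + 1) * (s + 3) + 1 := by ring
    rw [h5, Nat.add_sub_cancel]
  have c1 : Nat.Coprime X (s + 2) := by
    rw [e1]; exact (Nat.coprime_mul_left_add_left _ _ _).2 (Nat.coprime_one_left _)
  have c2 : Nat.Coprime X (s + 1) := by
    rw [e2]; exact (Nat.coprime_mul_left_add_left _ _ _).2 (Nat.coprime_one_left _)
  have c3 : Nat.Coprime X (s + 3) := by
    rw [e3]
    refine (Nat.coprime_mul_left_add_left _ _ _).2 ?_
    exact (Nat.Prime.coprime_iff_not_dvd Nat.prime_three).2 (by omega)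
  rw [e4]
  exact Nat.Coprime.mul_right c1 (Nat.Coprime.mul_right c2 c3)

theorem disj_lemma (q r i : ℕ) (hrq : r ≤ q) (h3q : 3 ∣ q) (h3r : 3 ∣ r) (hqodd : Odd q)
    (hrodd : Odd r) (hrpow : ∃ k, r = 3 ^ k) (h1 : i ∣ q + r + 1) (h2 : i ∣ q - r + 1) :
    i = 1 := by
  have hd : i ∣ 2 * r := by
    have h5 := Nat.dvd_sub h1 h2
    have e : q + r + 1 - (q - r + 1) = 2 * r := by omega
    rwa [e] at h5
  have hodd : ¬ 2 ∣ q - r + 1 := by
    obtain ⟨a, ha⟩ := hqodd
    obtain ⟨b, hb⟩ := hrodd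
    omega
  have h3 : ¬ 3 ∣ q - r + 1 := by omega
  have c2 : Nat.Coprime (q - r + 1) 2 :=
    ((Nat.Prime.coprime_iff_not_dvd Nat.prime_two).2 hodd).symm
  have c3 : Nat.Coprime (q - r + 1) 3 :=
    ((Nat.Prime.coprime_iff_not_dvd Nat.prime_three).2 h3).symm
  obtain ⟨k, rfl⟩ := hrpow
  have c4 : Nat.Coprime (q - 3 ^ k + 1) (2 * 3 ^ k) :=
    Nat.Coprime.mul_right c2 (Nat.Coprime.pow_right k c3)
  exact Nat.Coprime.eq_one_of_dvd (Nat.Coprime.coprime_dvd_left h2 c4) hd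

/-! ## group theory -/

theorem orderOf_conj' {G : Type u} [Group G] (x g : G) : orderOf (x * g * x⁻¹) = orderOf g := by
  rw [← MulAut.conj_apply]
  exact MulEquiv.orderOf_eq _ _

/-- fusion in a subgroup which is the centralizer of each of its nonidentity elements -/
theorem fusion {G : Type u} [Group G] (C : Subgroup G)
    (hC : ∀ y ∈ C, y ≠ 1 → Subgroup.centralizer ({y} : Set G) = C) (g y : G) (hy : y ∈ C)
    (hy1 : y ≠ 1) (hgy : g * y * g⁻¹ ∈ C) : g ∈ Subgroup.normalizer (C : Set G) := by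
  have hgy1 : g * y * g⁻¹ ≠ 1 := fun h => hy1 (conj_eq_one_iff.1 h)
  rw [Subgroup.mem_normalizer_iff]
  intro h
  constructor
  · intro hh
    have h1 : h ∈ Subgroup.centralizer ({y} : Set G) := by rw [hC y hy hy1]; exact hh
    rw [Subgroup.mem_centralizer_singleton_iff] at h1
    have h2 : g * h * g⁻¹ ∈ Subgroup.centralizer ({g * y * g⁻¹} : Set G) := by
      rw [Subgroup.mem_centralizer_singleton_iff]
      calc g * h * g⁻¹ * (g * y * g⁻¹) = g * (h * y) * g⁻¹ := by group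
        _ = g * (y * h) * g⁻¹ := by rw [h1]
        _ = g * y * g⁻¹ * (g * h * g⁻¹) := by group
    rw [hC _ hgy hgy1] at h2
    exact h2
  · intro hh
    have h2 : g * h * g⁻¹ ∈ Subgroup.centralizer ({g * y * g⁻¹} : Set G) := by
      rw [hC _ hgy hgy1]; exact hh
    rw [Subgroup.mem_centralizer_singleton_iff] at h2
    have h1 : h ∈ Subgroup.centralizer ({y} : Set G) := by
      rw [Subgroup.mem_centralizer_singleton_iff]
      calc h * y = g⁻¹ * (g * h * g⁻¹ * (g * y * g⁻¹)) * g := by group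
        _ = g⁻¹ * (g * y * g⁻¹ * (g * h * g⁻¹)) * g := by rw [h2]
        _ = y * h := by group
    rw [hC y hy hy1] at h1
    exact h1

/-- the number of elements of order `i` in a finite cyclic subgroup -/
theorem card_order_cyclic {G : Type u} [Group G] [Finite G] (C : Subgroup G) (hcyc : IsCyclic C)
    (i : ℕ) (hi : i ∣ Nat.card C) :
    Nat.card {y : ↥C // orderOf (y : G) = i} = Nat.totient i := by
  classical
  haveI : Fintype C := Fintype.ofFinite _
  have h1 : (Finset.univ.filter (fun a : C => orderOf a = i)).card = Nat.totient i :=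
    IsCyclic.card_orderOf_eq_totient (by rwa [← Nat.card_eq_fintype_card])
  rw [← h1, Nat.card_eq_fintype_card, Fintype.card_subtype]
  congr 1
  ext a
  simp only [Finset.mem_filter, Finset.mem_univ, true_and]
  rw [Subgroup.orderOf_coe]

/-- the count for a cyclic subgroup which is the centralizer of its nonidentity elements -/
theorem count_torus {G : Type u} [Group G] [Finite G] (hCnt : Cnt.{u}) (C : Subgroup G)
    (hcyc : IsCyclic C)
    (hcent : ∀ y ∈ C, y ≠ 1 → Subgroup.centralizer ({y} : Set G) = C)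
    (i : ℕ) (hi1 : 1 < i) (hidvd : i ∣ Nat.card C)
    (hcov : ∀ g : G, orderOf g = i → ∃ x : G, x * g * x⁻¹ ∈ C) :
    Nat.card {g : G // orderOf g = i} * Nat.card ↥(Subgroup.normalizer (C : Set G)) =
      Nat.totient i * Nat.card G := by
  have h : Nat.card {g : G // orderOf g = i} * Nat.card ↥(Subgroup.normalizer (C : Set G)) =
      Nat.card {y : ↥C // orderOf (y : G) = i} * Nat.card G := by
    refine hCnt G C (fun g => orderOf g = i) ?_ ?_ hcov
    · intro g x hg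
      rw [orderOf_conj']; exact hg
    · intro g y hy hP hgy
      refine fusion C hcent g y hy ?_ hgy
      intro h1
      rw [h1, orderOf_one] at hP
      omega
  rw [card_order_cyclic C hcyc i hidvd] at h
  exact h

theorem kt_core {G : Type u} [Group G] [Finite G] (hCnt : Cnt.{u}) (q r : ℕ) (hq3 : 3 ∣ q)
    (hr3 : 3 ∣ r) (hrq : r ≤ q) (hqodd : Odd q) (hrodd : Odd r) (hr2 : r ^ 2 = 3 * q)
    (hrpow : ∃ k, r = 3 ^ k) (hq3le : 3 ≤ q)
    (hG : Nat.card G = q ^ 3 * (q - 1) * (q ^ 3 + 1))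
    (C₁ C₂ : Subgroup G) (hcyc1 : IsCyclic C₁) (hcyc2 : IsCyclic C₂)
    (hcard1 : Nat.card C₁ = q + r + 1) (hcard2 : Nat.card C₂ = q - r + 1)
    (hcov : ∀ g : G, g ≠ 1 → Nat.Coprime (orderOf g) (q * (q ^ 2 - 1)) →
      ∃ x : G, x * g * x⁻¹ ∈ C₁ ∨ x * g * x⁻¹ ∈ C₂)
    (hN1 : Nat.card ↥(Subgroup.normalizer (C₁ : Set G)) = 6 * (q + r + 1))
    (hN2 : Nat.card ↥(Subgroup.normalizer (C₂ : Set G)) = 6 * (q - r + 1))
    (hcent1 : ∀ y ∈ C₁, y ≠ 1 → Subgroup.centralizer ({y} : Set G) = C₁)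
    (hcent2 : ∀ y ∈ C₂, y ≠ 1 → Subgroup.centralizer ({y} : Set G) = C₂) :
    (∀ i : ℕ, 1 < i → i ∣ q - r + 1 →
      6 * Nat.card {g : G // orderOf g = i} =
        Nat.totient i * q ^ 3 * (q ^ 2 - 1) * (q + r + 1)) ∧
    (∀ i : ℕ, 1 < i → i ∣ q + r + 1 →
      6 * Nat.card {g : G // orderOf g = i} =
        Nat.totient i * q ^ 3 * (q ^ 2 - 1) * (q - r + 1)) := by
  have hX := torus_prod q r hrq hr2
  have hcopX := cop_lemma q ((q + r + 1) * (q - r + 1)) (by omega) hq3 hX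
  have hg3 : q ^ 3 + 1 = (q + 1) * ((q + r + 1) * (q - r + 1)) := by
    generalize (q + r + 1) * (q - r + 1) = X at hX
    nlinarith [hX]
  have hb : q ^ 2 - 1 = (q - 1) * (q + 1) := by
    obtain ⟨s, rfl⟩ : ∃ s, q = s + 1 := ⟨q - 1, by omega⟩
    have h5 : (s + 1) ^ 2 = s * (s + 1 + 1) + 1 := by ring
    rw [h5, Nat.add_sub_cancel, Nat.add_sub_cancel]
  -- an element of order `i` dividing `q² - q + 1` is of the third kind
  have hthird : ∀ (i : ℕ) (g : G), 1 < i → i ∣ (q + r + 1) * (q - r + 1) → orderOf g = i →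
      g ≠ 1 ∧ Nat.Coprime (orderOf g) (q * (q ^ 2 - 1)) := by
    intro i g hi1 hidvd hg
    refine ⟨?_, ?_⟩
    · intro h1
      rw [h1, orderOf_one] at hg
      omega
    · rw [hg]
      exact Nat.Coprime.coprime_dvd_left hidvd hcopX
  have hmemdvd : ∀ (C : Subgroup G) (y : G), y ∈ C → orderOf y ∣ Nat.card C := by
    intro C y hy
    have h5 : orderOf (⟨y, hy⟩ : C) ∣ Nat.card C := orderOf_dvd_natCard _
    rwa [Subgroup.orderOf_mk] at h5
  constructor
  · intro i hi1 hidvd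
    have hcover : ∀ g : G, orderOf g = i → ∃ x : G, x * g * x⁻¹ ∈ C₂ := by
      intro g hg
      obtain ⟨hg1, hgc⟩ := hthird i g hi1 (Dvd.dvd.mul_left hidvd _) hg
      obtain ⟨x, hx | hx⟩ := hcov g hg1 hgc
      · exfalso
        have h5 := hmemdvd C₁ _ hx
        rw [orderOf_conj', hg, hcard1] at h5
        have h6 := disj_lemma q r i hrq hq3 hr3 hqodd hrodd hrpow h5 hidvd
        omega
      · exact ⟨x, hx⟩
    have hc := count_torus hCnt C₂ hcyc2 hcent2 i hi1 (by rw [hcard2]; exact hidvd) hcover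
    rw [hN2, hG] at hc
    have hpos : 0 < q - r + 1 := Nat.succ_pos _
    apply Nat.eq_of_mul_eq_mul_right hpos
    rw [hb]
    calc 6 * Nat.card {g : G // orderOf g = i} * (q - r + 1)
        = Nat.card {g : G // orderOf g = i} * (6 * (q - r + 1)) := by ring
      _ = Nat.totient i * (q ^ 3 * (q - 1) * (q ^ 3 + 1)) := hc
      _ = Nat.totient i * q ^ 3 * ((q - 1) * (q + 1)) * (q + r + 1) * (q - r + 1) := by
          rw [hg3]; ring
  · intro i hi1 hidvd
    have hcover : ∀ g : G, orderOf g = i → ∃ x : G, x * g * x⁻¹ ∈ C₁ := by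
      intro g hg
      obtain ⟨hg1, hgc⟩ := hthird i g hi1 (Dvd.dvd.mul_right hidvd _) hg
      obtain ⟨x, hx | hx⟩ := hcov g hg1 hgc
      · exact ⟨x, hx⟩
      · exfalso
        have h5 := hmemdvd C₂ _ hx
        rw [orderOf_conj', hg, hcard2] at h5
        have h6 := disj_lemma q r i hrq hq3 hr3 hqodd hrodd hrpow hidvd h5
        omega
    have hc := count_torus hCnt C₁ hcyc1 hcent1 i hi1 (by rw [hcard1]; exact hidvd) hcover
    rw [hN1, hG] at hc
    have hpos : 0 < q + r + 1 := Nat.succ_pos _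
    apply Nat.eq_of_mul_eq_mul_right hpos
    rw [hb]
    calc 6 * Nat.card {g : G // orderOf g = i} * (q + r + 1)
        = Nat.card {g : G // orderOf g = i} * (6 * (q + r + 1)) := by ring
      _ = Nat.totient i * (q ^ 3 * (q - 1) * (q ^ 3 + 1)) := hc
      _ = Nat.totient i * q ^ 3 * ((q - 1) * (q + 1)) * (q - r + 1) * (q + r + 1) := by
          rw [hg3]; ring

theorem main : KT.{u} := by
  intro G _ _ m hm hCnt hG hTor
  obtain ⟨C₁, C₂, hcyc1, hcyc2, hcard1, hcard2, hcov, hN1, hN2, hcent1, hcent2⟩ := hTor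
  have hq3 : 3 ∣ qq m := dvd_pow_self 3 (by omega)
  have hr3 : 3 ∣ rr m := dvd_pow_self 3 (by omega)
  have hrq : rr m ≤ qq m := Nat.pow_le_pow_right (by norm_num) (by omega)
  have hqodd : Odd (qq m) := Odd.pow (by decide)
  have hrodd : Odd (rr m) := Odd.pow (by decide)
  have hr2 : rr m ^ 2 = 3 * qq m := by
    show (3 ^ (m + 1)) ^ 2 = 3 * 3 ^ (2 * m + 1)
    ring
  have hq3le : 3 ≤ qq m := Nat.le_self_pow (by omega) 3
  exact kt_core hCnt (qq m) (rr m) hq3 hr3 hrq hqodd hrodd hr2 ⟨m + 1, rfl⟩ hq3le hG C₁ C₂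
    hcyc1 hcyc2 hcard1 hcard2 (fun g h1 h2 => hcov g ⟨h1, h2⟩) hN1 hN2 hcent1 hcent2

end Cfsg.Agent.Lib.Helper68.RHKT
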