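import Cfsg.Agent.Lib.Helper32.S9Stmt

/-!
# S3805, piece CFG: the hypotheses of S3805 give a configuration

`T` is a Sylow 3-subgroup, elementary abelian of order 9, self-centralizing, with
`N_G(T)/T` a four-group and `C_G(t) <= N_G(T)` for `t` in `T`, `t != 1`.  We produce
`x, y, a, b` with `T = <x> x <y>`, `N_G(T) = <x,a> x <y,b>`.
-/

set_option autoImplicit false

namespace Cfsg.Agent.Lib.Helper68.S9CFG

open Cfsg Cfsg.Agent.Lib.Helper32

universe u

theorem eq_one_of_cube_sq {G : Type u} [Group G] (z : G) (h3 : z ^ 3 = 1) (h2 : z * z = 1) :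
    z = 1 := by
  calc z = z ^ 3 * (z * z)⁻¹ := by group
    _ = 1 := by rw [h3, h2, inv_one, mul_one]

theorem pow_cases3 {G : Type u} [Group G] (z : G) (h3 : z ^ 3 = 1) (i : ℕ) :
    z ^ i = 1 ∨ z ^ i = z ∨ z ^ i = z⁻¹ := by
  have hmod : z ^ i = z ^ (i % 3) := pow_eq_pow_mod i h3
  have hlt : i % 3 < 3 := Nat.mod_lt _ (by norm_num)
  rw [hmod]
  interval_cases (i % 3)
  · left; simp
  · right; left; simp
  · right; right
    apply eq_inv_of_mul_eq_one_left
    calc z ^ 2 * z = z ^ 3 := by group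
      _ = 1 := h3

theorem comm_of_sq {G : Type u} [Group G] (p q : G) (h1 : p * p = 1) (h2 : q * q = 1)
    (h12 : (p * q) * (p * q) = 1) : p * q = q * p := by
  symm
  calc q * p = (p * p) * (q * p) * (q * q) := by rw [h1, h2, one_mul, mul_one]
    _ = p * ((p * q) * (p * q)) * q := by group
    _ = p * q := by rw [h12, mul_one]

/-- The set of products `x^i y^j` as a subgroup. -/
def pwSub {G : Type u} [Group G] (x y : G) (hxy : x * y = y * x) (hx3 : x ^ 3 = 1)
    (hy3 : y ^ 3 = 1) : Subgroup G where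
  carrier := {g | ∃ i j : ℕ, g = x ^ i * y ^ j}
  mul_mem' := by
    rintro _ _ ⟨i, j, rfl⟩ ⟨i', j', rfl⟩
    refine ⟨i + i', j + j', ?_⟩
    have h1 : Commute x y := hxy
    have h2 : y ^ j * x ^ i' = x ^ i' * y ^ j := ((h1.pow_pow i' j).eq).symm
    rw [pow_add, pow_add]
    calc x ^ i * y ^ j * (x ^ i' * y ^ j') = x ^ i * (y ^ j * x ^ i') * y ^ j' := by
          simp only [mul_assoc]
      _ = x ^ i * (x ^ i' * y ^ j) * y ^ j' := by rw [h2]
      _ = x ^ i * x ^ i' * (y ^ j * y ^ j') := by simp only [mul_assoc]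
  one_mem' := ⟨0, 0, by simp⟩
  inv_mem' := by
    rintro _ ⟨i, j, rfl⟩
    refine ⟨2 * i, 2 * j, ?_⟩
    have h1 : Commute x y := hxy
    have hxi : (x ^ i)⁻¹ = x ^ (2 * i) := by
      apply inv_eq_of_mul_eq_one_right
      rw [← pow_add, show i + 2 * i = 3 * i by ring, pow_mul, hx3, one_pow]
    have hyj : (y ^ j)⁻¹ = y ^ (2 * j) := by
      apply inv_eq_of_mul_eq_one_right
      rw [← pow_add, show j + 2 * j = 3 * j by ring, pow_mul, hy3, one_pow]
    rw [mul_inv_rev, hxi, hyj]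
    exact ((h1.pow_pow (2 * i) (2 * j)).eq).symm

theorem mem_pwSub {G : Type u} [Group G] (x y : G) (hxy : x * y = y * x) (hx3 : x ^ 3 = 1)
    (hy3 : y ^ 3 = 1) (g : G) :
    g ∈ pwSub x y hxy hx3 hy3 ↔ ∃ i j : ℕ, g = x ^ i * y ^ j := Iff.rfl

/-- Abstract core: a four-group `V` of involutions acting faithfully on `T`. -/
theorem core {G : Type u} [Group G] [Finite G] (T V : Subgroup G)
    (hTc : ∀ s ∈ T, ∀ t ∈ T, s * t = t * s) (hT3 : ∀ t ∈ T, t ^ 3 = 1)
    (hT9 : Nat.card T = 9)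
    (hcent : ∀ g : G, (∀ t ∈ T, g * t * g⁻¹ = t) → g ∈ T)
    (hV2 : ∀ u ∈ V, u * u = 1)
    (hVc : ∀ u ∈ V, ∀ w ∈ V, u * w = w * u)
    (hVT : ∀ u ∈ V, u ∈ T → u = 1)
    (hVn : ∀ u ∈ V, ∀ t ∈ T, u * t * u⁻¹ ∈ T)
    (hV3 : ∀ u ∈ V, ∃ w ∈ V, w ≠ 1 ∧ w ≠ u) :
    ∃ x y a b : G, a ∈ V ∧ b ∈ V ∧ x ^ 3 = 1 ∧ y ^ 3 = 1 ∧ x * y = y * x ∧ a * b = b * a ∧
      a ^ 2 = 1 ∧ b ^ 2 = 1 ∧ a * x * a⁻¹ = x⁻¹ ∧ a * y = y * a ∧ b * x = x * b ∧
      b * y * b⁻¹ = y⁻¹ ∧ x ≠ 1 ∧ y ∉ Subgroup.zpowers x ∧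
      (∀ g, g ∈ T ↔ ∃ i j : ℕ, g = x ^ i * y ^ j) ∧
      (∀ v ∈ V, v = 1 ∨ v = a ∨ v = b ∨ v = a * b) := by
  classical
  have hVinv : ∀ u ∈ V, u⁻¹ = u := fun u hu => inv_eq_of_mul_eq_one_left (hV2 u hu)
  have hconjT : ∀ u ∈ V, ∀ t ∈ T, MulAut.conj u t ∈ T := fun u hu t ht => by
    rw [MulAut.conj_apply]; exact hVn u hu t ht
  have hcomm : ∀ u ∈ V, ∀ w ∈ V, ∀ t : G,
      MulAut.conj u (MulAut.conj w t) = MulAut.conj w (MulAut.conj u t) := by
    intro u hu w hw t
    have h1 : MulAut.conj (u * w) t = MulAut.conj u (MulAut.conj w t) := by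
      rw [map_mul, MulAut.mul_apply]
    have h2 : MulAut.conj (w * u) t = MulAut.conj w (MulAut.conj u t) := by
      rw [map_mul, MulAut.mul_apply]
    rw [← h1, ← h2, hVc u hu w hw]
  have hcentV : ∀ u ∈ V, (∀ t ∈ T, MulAut.conj u t = t) → u = 1 := fun u hu h =>
    hVT u hu (hcent u (fun t ht => (MulAut.conj_apply u t).symm.trans (h t ht)))
  have hsq : ∀ u ∈ V, ∀ t : G, MulAut.conj u (MulAut.conj u t) = t := by
    intro u hu t
    have h1 : MulAut.conj (u * u) t = MulAut.conj u (MulAut.conj u t) := by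
      rw [map_mul, MulAut.mul_apply]
    rw [← h1, hV2 u hu, map_one, MulAut.one_apply]
  -- the involution `a`
  obtain ⟨v1, hv1V, hv1, -⟩ := hV3 1 V.one_mem
  obtain ⟨v2, hv2V, hv2, hv21⟩ := hV3 v1 hv1V
  have hex : ∃ a ∈ V, a ≠ 1 ∧ ¬ (∀ t ∈ T, MulAut.conj a t = t⁻¹) := by
    by_contra hcon
    push_neg at hcon
    have h1 := hcon v1 hv1V hv1
    have h2 := hcon v2 hv2V hv2
    have h12 : v1 * v2 = 1 := by
      apply hcentV _ (V.mul_mem hv1V hv2V)
      intro t ht
      rw [map_mul, MulAut.mul_apply, h2 t ht, h1 _ (T.inv_mem ht), inv_inv]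
    apply hv21
    have h3 : v2 = v1⁻¹ := eq_inv_of_mul_eq_one_right h12
    rw [h3, hVinv v1 hv1V]
  obtain ⟨a, haV, ha1, hainv⟩ := hex
  push_neg at hainv
  obtain ⟨t0, ht0, ht0'⟩ := hainv
  have hacent : ¬ (∀ t ∈ T, MulAut.conj a t = t) := fun h => ha1 (hcentV a haV h)
  push_neg at hacent
  obtain ⟨t1, ht1, ht1'⟩ := hacent
  obtain ⟨x, hx⟩ : ∃ x : G, x = t1 * (MulAut.conj a t1)⁻¹ := ⟨_, rfl⟩
  obtain ⟨y, hy⟩ : ∃ y : G, y = t0 * MulAut.conj a t0 := ⟨_, rfl⟩
  have hxT : x ∈ T := by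
    rw [hx]; exact T.mul_mem ht1 (T.inv_mem (hconjT a haV t1 ht1))
  have hyT : y ∈ T := by
    rw [hy]; exact T.mul_mem ht0 (hconjT a haV t0 ht0)
  have hx1 : x ≠ 1 := by
    intro h
    apply ht1'
    rw [hx] at h
    exact (mul_inv_eq_one.1 h).symm
  have hy1 : y ≠ 1 := by
    intro h
    apply ht0'
    rw [hy] at h
    exact eq_inv_of_mul_eq_one_right h
  have hax : MulAut.conj a x = x⁻¹ := by
    rw [hx, map_mul, map_inv, hsq a haV, mul_inv_rev, inv_inv]
  have hay : MulAut.conj a y = y := by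
    rw [hy, map_mul, hsq a haV]
    exact hTc _ (hconjT a haV t0 ht0) _ ht0
  have hx3 : x ^ 3 = 1 := hT3 x hxT
  have hy3 : y ^ 3 = 1 := hT3 y hyT
  have hxy : x * y = y * x := hTc x hxT y hyT
  -- `T = <x> <y>`
  have hST : pwSub x y hxy hx3 hy3 ≤ T := by
    intro g hg
    obtain ⟨i, j, rfl⟩ := (mem_pwSub x y hxy hx3 hy3 g).1 hg
    exact T.mul_mem (T.pow_mem hxT i) (T.pow_mem hyT j)
  have hxS : x ∈ pwSub x y hxy hx3 hy3 := (mem_pwSub x y hxy hx3 hy3 x).2 ⟨1, 0, by simp⟩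
  have hyS : y ∈ pwSub x y hxy hx3 hy3 := (mem_pwSub x y hxy hx3 hy3 y).2 ⟨0, 1, by simp⟩
  have hXS : Subgroup.zpowers x ≤ pwSub x y hxy hx3 hy3 := by
    rw [Subgroup.zpowers_le]; exact hxS
  have hyX : y ∉ Subgroup.zpowers x := by
    intro hmem
    obtain ⟨k, hk⟩ := Subgroup.mem_zpowers_iff.1 hmem
    have h1 : MulAut.conj a y = y⁻¹ := by
      rw [← hk, map_zpow, hax, inv_zpow]
    rw [hay] at h1
    apply hy1
    have h2 : y * y = 1 := by
      have h3 := mul_inv_cancel y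
      rw [← h1] at h3
      exact h3
    exact eq_one_of_cube_sq y hy3 h2
  have hcardX : Nat.card (Subgroup.zpowers x) = 3 := by
    rw [Nat.card_zpowers]
    exact orderOf_eq_prime hx3 hx1
  have hS9 : Nat.card (pwSub x y hxy hx3 hy3) = 9 := by
    have hd1 : 3 ∣ Nat.card (pwSub x y hxy hx3 hy3) := hcardX ▸ Subgroup.card_dvd_of_le hXS
    have hd2 : Nat.card (pwSub x y hxy hx3 hy3) ∣ 9 := hT9 ▸ Subgroup.card_dvd_of_le hST
    have hle : Nat.card (pwSub x y hxy hx3 hy3) ≤ 9 := Nat.le_of_dvd (by norm_num) hd2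
    have hpos : 0 < Nat.card (pwSub x y hxy hx3 hy3) := Nat.card_pos
    have hne3 : Nat.card (pwSub x y hxy hx3 hy3) ≠ 3 := by
      intro h3
      have : Subgroup.zpowers x = pwSub x y hxy hx3 hy3 :=
        Subgroup.eq_of_le_of_card_ge hXS (by rw [h3, hcardX])
      exact hyX (this ▸ hyS)
    generalize Nat.card (pwSub x y hxy hx3 hy3) = c at *
    interval_cases c <;> omega
  have hSeq : pwSub x y hxy hx3 hy3 = T :=
    Subgroup.eq_of_le_of_card_ge hST (by rw [hS9, hT9])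
  have hmemT : ∀ g, g ∈ T ↔ ∃ i j : ℕ, g = x ^ i * y ^ j := by
    intro g; rw [← hSeq]; exact mem_pwSub x y hxy hx3 hy3 g
  have hconj_xy : ∀ i j : ℕ, MulAut.conj a (x ^ i * y ^ j) = (x ^ i)⁻¹ * y ^ j := by
    intro i j
    rw [map_mul, map_pow, map_pow, hax, hay, inv_pow]
  -- elements of `T` inverted by `a`
  have hI : ∀ t ∈ T, MulAut.conj a t = t⁻¹ → t = 1 ∨ t = x ∨ t = x⁻¹ := by
    intro t ht h
    obtain ⟨i, j, rfl⟩ := (hmemT t).1 ht
    rw [hconj_xy, mul_inv_rev] at h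
    have hc : Commute (x ^ i) (y ^ j) := (show Commute x y from hxy).pow_pow i j
    have h3 : (y ^ j)⁻¹ * (x ^ i)⁻¹ = (x ^ i)⁻¹ * (y ^ j)⁻¹ := (hc.inv_inv.eq).symm
    rw [h3] at h
    have h4 : y ^ j = (y ^ j)⁻¹ := mul_left_cancel h
    have h2 : y ^ j * y ^ j = 1 := by
      have h5 := mul_inv_cancel (y ^ j)
      rw [← h4] at h5
      exact h5
    have hyj : y ^ j = 1 :=
      eq_one_of_cube_sq _ (by rw [← pow_mul, mul_comm, pow_mul, hy3, one_pow]) h2
    rw [hyj, mul_one]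
    exact pow_cases3 x hx3 i
  -- elements of `T` centralized by `a`
  have hC : ∀ t ∈ T, MulAut.conj a t = t → t = 1 ∨ t = y ∨ t = y⁻¹ := by
    intro t ht h
    obtain ⟨i, j, rfl⟩ := (hmemT t).1 ht
    rw [hconj_xy] at h
    have h4 : (x ^ i)⁻¹ = x ^ i := mul_right_cancel h
    have h2 : x ^ i * x ^ i = 1 := by
      have h5 := inv_mul_cancel (x ^ i)
      rw [h4] at h5
      exact h5
    have hxi : x ^ i = 1 :=
      eq_one_of_cube_sq _ (by rw [← pow_mul, mul_comm, pow_mul, hx3, one_pow]) h2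
    rw [hxi, one_mul]
    exact pow_cases3 y hy3 j
  have hsign : ∀ u ∈ V, (MulAut.conj u x = x ∨ MulAut.conj u x = x⁻¹) ∧
      (MulAut.conj u y = y ∨ MulAut.conj u y = y⁻¹) := by
    intro u hu
    constructor
    · have h1 : MulAut.conj a (MulAut.conj u x) = (MulAut.conj u x)⁻¹ := by
        rw [hcomm a haV u hu, hax, map_inv]
      rcases hI _ (hconjT u hu x hxT) h1 with h | h | h
      · exfalso; apply hx1
        have h6 := hsq u hu x
        rw [h, map_one] at h6
        exact h6.symm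
      · left; exact h
      · right; exact h
    · have h1 : MulAut.conj a (MulAut.conj u y) = MulAut.conj u y := by
        rw [hcomm a haV u hu, hay]
      rcases hC _ (hconjT u hu y hyT) h1 with h | h | h
      · exfalso; apply hy1
        have h6 := hsq u hu y
        rw [h, map_one] at h6
        exact h6.symm
      · left; exact h
      · right; exact h
  have htriv : ∀ u ∈ V, MulAut.conj u x = x → MulAut.conj u y = y → u = 1 := by
    intro u hu h1 h2
    apply hcentV u hu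
    intro t ht
    obtain ⟨i, j, rfl⟩ := (hmemT t).1 ht
    rw [map_mul, map_pow, map_pow, h1, h2]
  -- the involution `b`
  obtain ⟨w, hwV, hw1, hwa⟩ := hV3 a haV
  have hb : ∃ b ∈ V, MulAut.conj b x = x ∧ MulAut.conj b y = y⁻¹ := by
    obtain ⟨hwx, hwy⟩ := hsign w hwV
    rcases hwx with hwx | hwx <;> rcases hwy with hwy | hwy
    · exact absurd (htriv w hwV hwx hwy) hw1
    · exact ⟨w, hwV, hwx, hwy⟩
    · exfalso
      have h7 : a * w = 1 := by
        apply htriv _ (V.mul_mem haV hwV)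
        · rw [map_mul, MulAut.mul_apply, hwx, map_inv, hax, inv_inv]
        · rw [map_mul, MulAut.mul_apply, hwy, hay]
      apply hwa
      have h3 : w = a⁻¹ := eq_inv_of_mul_eq_one_right h7
      rw [h3, hVinv a haV]
    · refine ⟨a * w, V.mul_mem haV hwV, ?_, ?_⟩
      · rw [map_mul, MulAut.mul_apply, hwx, map_inv, hax, inv_inv]
      · rw [map_mul, MulAut.mul_apply, hwy, map_inv, hay]
  obtain ⟨b, hbV, hbx, hby⟩ := hb
  have hVall : ∀ v ∈ V, v = 1 ∨ v = a ∨ v = b ∨ v = a * b := by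
    intro v hv
    obtain ⟨hvx, hvy⟩ := hsign v hv
    rcases hvx with hvx | hvx <;> rcases hvy with hvy | hvy
    · left; exact htriv v hv hvx hvy
    · right; right; left
      have h7 : b * v = 1 := by
        apply htriv _ (V.mul_mem hbV hv)
        · rw [map_mul, MulAut.mul_apply, hvx, hbx]
        · rw [map_mul, MulAut.mul_apply, hvy, map_inv, hby, inv_inv]
      have h3 : v = b⁻¹ := eq_inv_of_mul_eq_one_right h7
      rw [h3, hVinv b hbV]
    · right; left
      have h7 : a * v = 1 := by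
        apply htriv _ (V.mul_mem haV hv)
        · rw [map_mul, MulAut.mul_apply, hvx, map_inv, hax, inv_inv]
        · rw [map_mul, MulAut.mul_apply, hvy, hay]
      have h3 : v = a⁻¹ := eq_inv_of_mul_eq_one_right h7
      rw [h3, hVinv a haV]
    · right; right; right
      have habV : a * b ∈ V := V.mul_mem haV hbV
      have h7 : (a * b) * v = 1 := by
        apply htriv _ (V.mul_mem habV hv)
        · rw [map_mul, MulAut.mul_apply, hvx, map_inv, map_mul, MulAut.mul_apply, hbx, hax,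
            inv_inv]
        · rw [map_mul, MulAut.mul_apply, hvy, map_inv, map_mul, MulAut.mul_apply, hby,
            map_inv, hay, inv_inv]
      have h3 : v = (a * b)⁻¹ := eq_inv_of_mul_eq_one_right h7
      rw [h3, hVinv _ habV]
  have hax' : a * x * a⁻¹ = x⁻¹ := (MulAut.conj_apply a x).symm.trans hax
  have hay' : a * y = y * a := by
    have h : a * y * a⁻¹ = y := (MulAut.conj_apply a y).symm.trans hay
    calc a * y = a * y * a⁻¹ * a := by group
      _ = y * a := by rw [h]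
  have hbx' : b * x = x * b := by
    have h : b * x * b⁻¹ = x := (MulAut.conj_apply b x).symm.trans hbx
    calc b * x = b * x * b⁻¹ * b := by group
      _ = x * b := by rw [h]
  have hby' : b * y * b⁻¹ = y⁻¹ := (MulAut.conj_apply b y).symm.trans hby
  exact ⟨x, y, a, b, haV, hbV, hx3, hy3, hxy, hVc a haV b hbV, (pow_two a).trans (hV2 a haV),
    (pow_two b).trans (hV2 b hbV), hax', hay', hbx', hby', hx1, hyX, hmemT, hVall⟩

theorem main_aux {G : Type u} [Group G] [Finite G] (T : Sylow 3 G) (N : Subgroup G)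
    (hN : N = Subgroup.normalizer ((T : Subgroup G) : Set G))
    (hEA : Cfsg.IsElementaryAbelian 3 (T : Subgroup G)) (hcard : Nat.card T = 9)
    (hCT : Subgroup.centralizer ((T : Subgroup G) : Set G) = T)
    [hnorm : ((T : Subgroup G).subgroupOf N).Normal]
    (hK : IsKleinFour (↥N ⧸ (T : Subgroup G).subgroupOf N))
    (hloc : ∀ t ∈ (T : Subgroup G), t ≠ 1 → Subgroup.centralizer ({t} : Set G) ≤ N) :
    ∃ x y a b : G, S9Stmt.Cfg (T : Subgroup G) N x y a b := by
  classical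
  have hTN : (T : Subgroup G) ≤ N := hN ▸ Subgroup.le_normalizer
  have hcard' : Nat.card (T : Subgroup G) = 9 := hcard
  have hTc : ∀ s ∈ (T : Subgroup G), ∀ t ∈ (T : Subgroup G), s * t = t * s := by
    intro s hs t ht
    have h := hEA.1.is_comm.comm (⟨s, hs⟩ : (T : Subgroup G)) ⟨t, ht⟩
    exact congrArg Subtype.val h
  have hT3 : ∀ t ∈ (T : Subgroup G), t ^ 3 = 1 := hEA.2
  have hcent : ∀ g : G, (∀ t ∈ (T : Subgroup G), g * t * g⁻¹ = t) → g ∈ (T : Subgroup G) := by
    intro g hg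
    rw [← hCT, Subgroup.mem_centralizer_iff]
    intro t ht
    have h := hg t ht
    calc t * g = (g * t * g⁻¹) * g := by rw [h]
      _ = g * t := by group
  have hnormN : ∀ n ∈ N, ∀ t ∈ (T : Subgroup G), n * t * n⁻¹ ∈ (T : Subgroup G) := by
    intro n hn t ht
    rw [hN, Subgroup.mem_normalizer_iff] at hn
    exact (hn t).1 ht
  have hc1 : Nat.card ((T : Subgroup G).subgroupOf N) = 9 := by
    rw [Nat.card_congr (Subgroup.subgroupOfEquivOfLe hTN).toEquiv]; exact hcard'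
  have hQ4 : Nat.card (↥N ⧸ (T : Subgroup G).subgroupOf N) = 4 := hK.card_four
  have hN36 : Nat.card N = 36 := by
    rw [Subgroup.card_eq_card_quotient_mul_card_subgroup ((T : Subgroup G).subgroupOf N), hQ4,
      hc1]
  obtain ⟨V, hV4⟩ := Sylow.exists_subgroup_card_pow_prime 2
    (show 2 ^ 2 ∣ Nat.card N by rw [hN36]; norm_num)
  have hV4' : Nat.card V = 4 := hV4.trans (by norm_num)
  have hcop : Nat.Coprime (Nat.card V) (Nat.card ((T : Subgroup G).subgroupOf N)) := by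
    rw [hV4', hc1]
    all_goals norm_num
  have hVT0 : V ⊓ (T : Subgroup G).subgroupOf N = ⊥ := Subgroup.inf_eq_bot_of_coprime hcop
  obtain ⟨π, hker⟩ : ∃ π : ↥N →* (↥N ⧸ (T : Subgroup G).subgroupOf N),
      ∀ n : ↥N, π n = 1 ↔ (n : G) ∈ (T : Subgroup G) :=
    ⟨QuotientGroup.mk' _, fun n => (QuotientGroup.eq_one_iff n).trans Subgroup.mem_subgroupOf⟩
  have hexp : ∀ q : (↥N ⧸ (T : Subgroup G).subgroupOf N), q ^ 2 = 1 := by
    intro q
    have h := Monoid.pow_exponent_eq_one q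
    rwa [hK.exponent_two] at h
  have hV2' : ∀ v ∈ V, v * v = 1 := by
    intro v hv
    have h1 : π (v * v) = 1 := by rw [map_mul, ← pow_two]; exact hexp _
    have h2 : v * v ∈ V ⊓ (T : Subgroup G).subgroupOf N :=
      ⟨V.mul_mem hv hv, Subgroup.mem_subgroupOf.2 ((hker _).1 h1)⟩
    rw [hVT0] at h2
    exact Subgroup.mem_bot.1 h2
  have hV3' : ∀ v : ↥N, ∃ w ∈ V, w ≠ 1 ∧ w ≠ v := by
    intro v
    by_contra hcon
    push_neg at hcon
    have hle : Nat.card V ≤ 2 := by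
      have hsub : (V : Set ↥N) ⊆ (({1, v} : Finset ↥N) : Set ↥N) := by
        intro w hw
        by_cases h1 : w = 1
        · simp [h1]
        · simp [hcon w hw h1]
      calc Nat.card V = (V : Set ↥N).ncard := Nat.card_coe_set_eq _
        _ ≤ (({1, v} : Finset ↥N) : Set ↥N).ncard :=
            Set.ncard_le_ncard hsub (Finset.finite_toSet _)
        _ = ({1, v} : Finset ↥N).card := Set.ncard_coe_finset _
        _ ≤ 2 := Finset.card_le_two
    omega
  have hinj : Function.Injective (fun v : V => π (v : ↥N)) := by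
    intro v1 v2 h
    have h' : π (v1 : ↥N) = π (v2 : ↥N) := h
    have h1 : π ((v1 : ↥N)⁻¹ * (v2 : ↥N)) = 1 := by
      rw [map_mul, map_inv, h']; exact inv_mul_cancel _
    have h2 : (v1 : ↥N)⁻¹ * (v2 : ↥N) ∈ V ⊓ (T : Subgroup G).subgroupOf N :=
      ⟨V.mul_mem (V.inv_mem v1.2) v2.2, Subgroup.mem_subgroupOf.2 ((hker _).1 h1)⟩
    rw [hVT0] at h2
    have h3 := Subgroup.mem_bot.1 h2
    exact Subtype.ext (inv_mul_eq_one.1 h3)
  have hsurj : Function.Surjective (fun v : V => π (v : ↥N)) :=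
    (Function.Injective.bijective_of_nat_card_le hinj (le_of_eq (hQ4.trans hV4'.symm))).2
  -- transfer to `G`
  obtain ⟨W, hW⟩ : ∃ W : Subgroup G, W = V.map N.subtype := ⟨_, rfl⟩
  have hWmem : ∀ u : G, u ∈ W ↔ ∃ v ∈ V, (v : G) = u := by
    intro u; rw [hW]; exact Subgroup.mem_map
  have hWN : W ≤ N := by
    intro u hu
    obtain ⟨v, hv, rfl⟩ := (hWmem u).1 hu
    exact v.2
  have h2W : ∀ u ∈ W, u * u = 1 := by
    intro u hu
    obtain ⟨v, hv, rfl⟩ := (hWmem u).1 hu
    exact congrArg Subtype.val (hV2' v hv)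
  have hcW : ∀ u ∈ W, ∀ w ∈ W, u * w = w * u := by
    intro u hu w hw
    exact comm_of_sq u w (h2W u hu) (h2W w hw) (h2W _ (W.mul_mem hu hw))
  have hTW : ∀ u ∈ W, u ∈ (T : Subgroup G) → u = 1 := by
    intro u hu huT
    obtain ⟨v, hv, rfl⟩ := (hWmem u).1 hu
    have h2 : v ∈ V ⊓ (T : Subgroup G).subgroupOf N := ⟨hv, Subgroup.mem_subgroupOf.2 huT⟩
    rw [hVT0] at h2
    exact congrArg Subtype.val (Subgroup.mem_bot.1 h2)
  have hnW : ∀ u ∈ W, ∀ t ∈ (T : Subgroup G), u * t * u⁻¹ ∈ (T : Subgroup G) := by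
    intro u hu t ht
    exact hnormN u (hWN hu) t ht
  have h3W : ∀ u ∈ W, ∃ w ∈ W, w ≠ 1 ∧ w ≠ u := by
    intro u hu
    obtain ⟨v, hv, rfl⟩ := (hWmem u).1 hu
    obtain ⟨w, hw, hw1, hwv⟩ := hV3' v
    refine ⟨(w : G), (hWmem _).2 ⟨w, hw, rfl⟩, ?_, ?_⟩
    · intro h; exact hw1 (Subtype.ext h)
    · intro h; exact hwv (Subtype.ext h)
  obtain ⟨x, y, a, b, haW, hbW, hx3, hy3, hxy, hab, ha2, hb2, hax, hay, hbx, hby, hx1, hyx,
    hmemT, hVall⟩ := core (T : Subgroup G) W hTc hT3 hcard' hcent h2W hcW hTW hnW h3W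
  have key : ∀ g v : G, g * v⁻¹ ∈ (T : Subgroup G) → (v = 1 ∨ v = a ∨ v = b ∨ v = a * b) →
      ∃ t ∈ (T : Subgroup G), ∃ k l : ℕ, g = t * a ^ k * b ^ l := by
    intro g v ht hv
    refine ⟨g * v⁻¹, ht, ?_⟩
    rcases hv with h | h | h | h
    · exact ⟨0, 0, by rw [h]; simp⟩
    · exact ⟨1, 0, by rw [h]; simp⟩
    · exact ⟨0, 1, by rw [h]; simp⟩
    · exact ⟨1, 1, by rw [h]; simp [mul_assoc]⟩
  refine ⟨x, y, a, b, ?_⟩
  exact
    { x3 := hx3
      y3 := hy3
      a2 := ha2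
      b2 := hb2
      xy := hxy
      ab := hab
      ax := hax
      ay := hay
      bx := hbx
      by_ := hby
      x1 := hx1
      yx := hyx
      memT := hmemT
      memN := by
        intro g
        constructor
        · intro hg
          obtain ⟨v, hv⟩ := hsurj (π ⟨g, hg⟩)
          have hv' : π (v : ↥N) = π ⟨g, hg⟩ := hv
          have hvW : ((v : ↥N) : G) ∈ W := (hWmem _).2 ⟨v, v.2, rfl⟩
          have ht : g * ((v : ↥N) : G)⁻¹ ∈ (T : Subgroup G) := by
            have h1 : π (⟨g, hg⟩ * (v : ↥N)⁻¹) = 1 := by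
              rw [map_mul, map_inv, hv']; exact mul_inv_cancel _
            exact (hker _).1 h1
          exact key g _ ht (hVall _ hvW)
        · rintro ⟨t, ht, k, l, rfl⟩
          exact N.mul_mem (N.mul_mem (hTN ht) (N.pow_mem (hWN haW) k)) (N.pow_mem (hWN hbW) l)
      norm := by
        intro g hg
        rw [hN, Subgroup.mem_normalizer_iff]
        intro h
        constructor
        · exact hg h
        · intro hh
          have hinj2 : Function.Injective
              (fun t : (T : Subgroup G) => (⟨g * t * g⁻¹, hg t t.2⟩ : (T : Subgroup G))) := by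
            intro t1 t2 h12
            have h13 : g * (t1 : G) * g⁻¹ = g * (t2 : G) * g⁻¹ := congrArg Subtype.val h12
            exact Subtype.ext (mul_left_cancel (mul_right_cancel h13))
          obtain ⟨t, ht⟩ := (Finite.injective_iff_surjective.1 hinj2) ⟨g * h * g⁻¹, hh⟩
          have h13 : g * (t : G) * g⁻¹ = g * h * g⁻¹ := congrArg Subtype.val ht
          have hth : (t : G) = h := mul_left_cancel (mul_right_cancel h13)
          rw [← hth]; exact t.2
      loc := by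
        intro t ht ht1 g hgt
        apply hloc t ht ht1
        rw [Subgroup.mem_centralizer_iff]
        intro h hh
        rw [Set.mem_singleton_iff] at hh
        rw [hh]; exact hgt.symm
      syl := by
        intro h27
        have h1 := T.card_eq_multiplicity
        rw [hcard] at h1
        have hG0 : Nat.card G ≠ 0 := Nat.card_pos.ne'
        have h2 : 3 ≤ (Nat.card G).factorization 3 :=
          (Nat.Prime.pow_dvd_iff_le_factorization Nat.prime_three hG0).1
            (by norm_num; exact h27)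
        have h3 : 3 ^ 3 ∣ 3 ^ (Nat.card G).factorization 3 := pow_dvd_pow 3 h2
        rw [← h1] at h3
        norm_num at h3 }

theorem main : S9Stmt.CFG.{u} := by
  intro G _ _ T hEA hcard hCT hnorm hK hloc
  exact main_aux T _ rfl hEA hcard hCT hK hloc

end Cfsg.Agent.Lib.Helper68.S9CFG
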