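import Mathlib
import Cfsg.Agent.S0035

/-!
Wielandt's generalisation of Frobenius' theorem (character-theoretic part and counting).

`L ≤ G`, `K ⊴ L`, and every element of `L` outside `K` has all its `G`-conjugates that lie in `L`
obtained by conjugating with elements of `L` (i.e. `L ∩ L^g ≤ K` for `g ∉ L`).  Then there is a
normal subgroup `M` of `G` with `M ∩ L = K` and `|M| = |G : L| |K|`.
-/

set_option autoImplicit false
open Cfsg

namespace Cfsg.Agent.Lib.Helper68.Wielandt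

open Cfsg.Agent.Lib.CT Cfsg.Agent.Lib.CT.Wedderburn
open Cfsg.Agent.S0035 (star star_apply star_isClassFunction star_isGeneralizedCharacter one_inner_one)
open scoped ComplexConjugate

universe u

section

variable {G : Type u} [Group G]

/-- Conjugates (inside `L`) of elements of `K` stay in `K`. -/
theorem conj_mem_K (L : Subgroup G) (K : Subgroup L) [hKn : K.Normal]
    (hP1 : ∀ x : L, x ∉ K → ∀ g : G, g⁻¹ * (x : G) * g ∈ L → g ∈ L)
    (x : L) (hx : x ∈ K) (g : G) (hg : g⁻¹ * (x : G) * g ∈ L) :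
    (⟨g⁻¹ * (x : G) * g, hg⟩ : L) ∈ K := by
  by_contra hy
  have h1 : g⁻¹ ∈ L := by
    apply hP1 ⟨g⁻¹ * (x : G) * g, hg⟩ hy g⁻¹
    have : g⁻¹⁻¹ * (g⁻¹ * (x : G) * g) * g⁻¹ = (x : G) := by group
    show g⁻¹⁻¹ * (g⁻¹ * (x : G) * g) * g⁻¹ ∈ L
    rw [this]; exact x.2
  have h2 : g ∈ L := by simpa using L.inv_mem h1
  apply hy
  have h3 : (⟨g⁻¹ * (x : G) * g, hg⟩ : L) = (⟨g, h2⟩ : L)⁻¹ * x * (⟨g, h2⟩ : L)⁻¹⁻¹ :=
    Subtype.ext (by simp)
  rw [h3]
  exact hKn.conj_mem x hx (⟨g, h2⟩ : L)⁻¹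

theorem indFun_WTI [Fintype G] (L : Subgroup G) (K : Subgroup L) [K.Normal]
    (hP1 : ∀ x : L, x ∉ K → ∀ g : G, g⁻¹ * (x : G) * g ∈ L → g ∈ L)
    (φ : L → ℂ) (hφ : IsClassFunction L φ) (hK : ∀ k ∈ K, φ k = 0) (h : L) :
    indFun L φ (h : G) = φ h := by
  classical
  let _ : Fintype L := Fintype.ofFinite L
  rw [FrobRec.indFun_apply]
  have hcard : (Nat.card L : ℂ) ≠ 0 := Nat.cast_ne_zero.mpr Nat.card_pos.ne'
  by_cases hh : h ∈ K
  · have h0 : ∀ x : G, extendByZero L φ (x⁻¹ * (h : G) * x) = 0 := by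
      intro x
      by_cases hx : x⁻¹ * (h : G) * x ∈ L
      · rw [FrobRec.extendByZero_apply_of_mem L _ hx]
        exact hK _ (conj_mem_K L K hP1 h hh x hx)
      · exact FrobRec.extendByZero_apply_of_not_mem L _ hx
    simp only [h0, Finset.sum_const_zero, mul_zero, hK h hh]
  · have hterm : ∀ x : G, extendByZero L φ (x⁻¹ * (h : G) * x)
        = extendByZero L (fun _ => φ h) x := by
      intro x
      by_cases hx : x ∈ L
      · rw [FrobRec.extendByZero_apply_of_mem L _ hx]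
        have e : x⁻¹ * (h : G) * x = (((⟨x, hx⟩ : L)⁻¹ * h * (⟨x, hx⟩ : L) : L) : G) := by simp
        rw [e, FrobRec.extendByZero_apply_coe]
        have := hφ h ((⟨x, hx⟩ : L)⁻¹)
        rwa [inv_inv] at this
      · rw [FrobRec.extendByZero_apply_of_not_mem L _ hx]
        apply FrobRec.extendByZero_apply_of_not_mem
        intro hmem
        exact hx (hP1 h hh x hmem)
    simp only [hterm]
    rw [FrobRec.sum_extendByZero, Finset.sum_const, Finset.card_univ, nsmul_eq_mul,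
      ← Nat.card_eq_fintype_card, ← mul_assoc, inv_mul_cancel₀ hcard, one_mul]

theorem star_coe [Fintype G] (L : Subgroup G) (K : Subgroup L) [K.Normal]
    (hP1 : ∀ x : L, x ∉ K → ∀ g : G, g⁻¹ * (x : G) * g ∈ L → g ∈ L)
    (θ : L → ℂ) (hθ : IsClassFunction L θ) (hθK : ∀ k ∈ K, θ k = θ 1) (h : L) :
    star L θ (h : G) = θ h := by
  rw [star_apply, indFun_WTI L K hP1 _ _ _ h]
  · simp
  · intro g k
    simp only [Pi.sub_apply]
    rw [hθ g k]
  · intro k hk
    simp [hθK k hk]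

theorem star_one [Fintype G] (L : Subgroup G) (K : Subgroup L) [K.Normal]
    (hP1 : ∀ x : L, x ∉ K → ∀ g : G, g⁻¹ * (x : G) * g ∈ L → g ∈ L)
    (θ : L → ℂ) (hθ : IsClassFunction L θ) (hθK : ∀ k ∈ K, θ k = θ 1) :
    star L θ 1 = θ 1 := by
  have := star_coe L K hP1 θ hθ hθK 1
  simpa using this

theorem star_of_conj_K [Fintype G] (L : Subgroup G) (K : Subgroup L)
    (θ : L → ℂ) (hθK : ∀ k ∈ K, θ k = θ 1) (g : G)
    (hg : ∀ x : G, ∀ hx : x⁻¹ * g * x ∈ L, (⟨x⁻¹ * g * x, hx⟩ : L) ∈ K) :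
    star L θ g = θ 1 := by
  rw [star_apply]
  have : indFun L (θ - fun _ => θ 1) g = 0 := by
    rw [FrobRec.indFun_apply]
    have h0 : ∀ x : G, extendByZero L (θ - fun _ => θ 1) (x⁻¹ * g * x) = 0 := by
      intro x
      by_cases hx : x⁻¹ * g * x ∈ L
      · rw [FrobRec.extendByZero_apply_of_mem L _ hx]
        simp [hθK _ (hg x hx)]
      · exact FrobRec.extendByZero_apply_of_not_mem L _ hx
    simp [h0]
  rw [this, zero_add]

theorem star_norm [Fintype G] (L : Subgroup G) (K : Subgroup L) [K.Normal]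
    (hP1 : ∀ x : L, x ∉ K → ∀ g : G, g⁻¹ * (x : G) * g ∈ L → g ∈ L)
    (θ : L → ℂ) (hθ : IsIrrCharacter L θ) (hθK : ∀ k ∈ K, θ k = θ 1)
    (hne : θ ≠ fun _ => (1 : ℂ)) :
    classInner (star L θ) (star L θ) = 1 := by
  classical
  let _ : Fintype L := Fintype.ofFinite L
  have hcl : IsClassFunction L θ := char_isClassFunction (isCharacter_of_irr hθ)
  have hS : IsClassFunction G (star L θ) := star_isClassFunction L θ
  have hres : (fun h : L => star L θ (h : G)) = θ := by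
    funext h; exact star_coe L K hP1 θ hcl hθK h
  have h11 : classInner θ θ = 1 := by
    have := irr_orthonormal (⟨θ, hθ⟩ : IrrCharacter L) ⟨θ, hθ⟩
    simpa using this
  have h10 : classInner θ (fun _ : L => (1 : ℂ)) = 0 := by
    have := irr_orthonormal (⟨θ, hθ⟩ : IrrCharacter L) ⟨_, Ops.isIrrCharacter_one⟩
    rw [if_neg (fun h => hne (congrArg Subtype.val h))] at this
    exact this
  have h01 : classInner (fun _ : L => (1 : ℂ)) θ = 0 := by
    rw [Clifford.classInner_conj_symm, h10, map_zero]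
  have econst : ∀ (X : Type u) [Group X] (c : ℂ), (fun _ : X => c) = c • (fun _ : X => (1 : ℂ)) := by
    intro X _ c; funext x; simp
  have hA : classInner (indFun L (θ - fun _ => θ 1)) (star L θ) = 1 := by
    rw [FrobRec.frobenius_reciprocity L _ _ hS, hres, Orth.classInner_sub_left, h11,
      econst L (θ 1), Orth.classInner_smul_left, h01, mul_zero, sub_zero]
  have hB : classInner (star L θ) (fun _ : G => (1 : ℂ)) = 0 := by
    have h1cl : IsClassFunction G (fun _ : G => (1 : ℂ)) := fun _ _ => rfl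
    unfold Cfsg.Agent.S0035.star
    rw [Orth.classInner_add_left, FrobRec.frobenius_reciprocity L _ _ h1cl,
      Orth.classInner_sub_left, h10, econst L (θ 1), Orth.classInner_smul_left, one_inner_one,
      econst G (θ 1), Orth.classInner_smul_left, one_inner_one]
    ring
  have hC : classInner (fun _ : G => θ 1) (star L θ) = 0 := by
    rw [econst G (θ 1), Orth.classInner_smul_left, Clifford.classInner_conj_symm, hB, map_zero,
      mul_zero]
  have hsplit : classInner (star L θ) (star L θ)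
      = classInner (indFun L (θ - fun _ => θ 1)) (star L θ)
        + classInner (fun _ : G => θ 1) (star L θ) :=
    Orth.classInner_add_left (indFun L (θ - fun _ => θ 1)) (fun _ => θ 1) (star L θ)
  rw [hsplit, hA, hC, add_zero]

theorem star_irr [Fintype G] (L : Subgroup G) (K : Subgroup L) [K.Normal]
    (hP1 : ∀ x : L, x ∉ K → ∀ g : G, g⁻¹ * (x : G) * g ∈ L → g ∈ L)
    (θ : L → ℂ) (hθ : IsIrrCharacter L θ) (hθK : ∀ k ∈ K, θ k = θ 1)
    (hne : θ ≠ fun _ => (1 : ℂ)) : IsIrrCharacter G (star L θ) := by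
  have hcl : IsClassFunction L θ := char_isClassFunction (isCharacter_of_irr hθ)
  obtain ⟨μ, hμ, h | h⟩ := Cfsg.Agent.Lib.Helper26.GenChar.eq_irr_or_neg_of_norm_one
    (star_isGeneralizedCharacter L θ (isCharacter_of_irr hθ)) (star_norm L K hP1 θ hθ hθK hne)
  · rw [h]; exact hμ
  · exfalso
    obtain ⟨n, hn0, hn⟩ := irr_exists_apply_one_pos hθ
    obtain ⟨m, hm0, hm⟩ := irr_exists_apply_one_pos hμ
    have h1 := star_one L K hP1 θ hcl hθK
    rw [h, Pi.neg_apply, hm, hn] at h1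
    have h2 : ((m + n : ℕ) : ℂ) = 0 := by
      push_cast
      rw [← h1]; ring
    have h3 : m + n = 0 := by exact_mod_cast h2
    omega

end

/-- **Wielandt's theorem** (kernel part).  If `K ⊴ L ≤ G` and every element of `L` outside `K`
has its `L`-valued `G`-conjugates produced by `L` only, there is a normal subgroup `M` of `G`
meeting `L` inside `K` and containing every element all of whose conjugates in `L` lie in `K`. -/
theorem exists_kernel {G : Type u} [Group G] [Finite G] (L : Subgroup G) (K : Subgroup L)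
    [K.Normal] (hP1 : ∀ x : L, x ∉ K → ∀ g : G, g⁻¹ * (x : G) * g ∈ L → g ∈ L) :
    ∃ M : Subgroup G, M.Normal ∧ (∀ g : G, g ∈ M → ∀ hg : g ∈ L, (⟨g, hg⟩ : L) ∈ K) ∧
      (∀ g : G, (∀ x : G, ∀ hx : x⁻¹ * g * x ∈ L, (⟨x⁻¹ * g * x, hx⟩ : L) ∈ K) → g ∈ M) := by
  classical
  let _ : Fintype G := Fintype.ofFinite G
  let _ : Fintype L := Fintype.ofFinite L
  have hfin := finite_irrCharacter L
  let _ : Fintype (IrrCharacter L) := Fintype.ofFinite _
  have hker : ∀ θ : {θ : IrrCharacter L // (∀ k ∈ K, (θ : L → ℂ) k = (θ : L → ℂ) 1) ∧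
        (θ : L → ℂ) ≠ fun _ => (1 : ℂ)},
      ∃ N : Subgroup G, N.Normal ∧
        ∀ g, g ∈ N ↔ star L (θ.1 : L → ℂ) g = star L (θ.1 : L → ℂ) 1 :=
    fun θ => Kernel.exists_normal_ker
      (isCharacter_of_irr (star_irr L K hP1 _ θ.1.2 θ.2.1 θ.2.2))
  choose Nθ hNθn hNθ using hker
  have hcl : ∀ θ : IrrCharacter L, IsClassFunction L (θ : L → ℂ) :=
    fun θ => char_isClassFunction (isCharacter_of_irr θ.2)
  have hNmem : ∀ g, g ∈ (⨅ θ, Nθ θ) ↔
      ∀ θ : {θ : IrrCharacter L // (∀ k ∈ K, (θ : L → ℂ) k = (θ : L → ℂ) 1) ∧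
        (θ : L → ℂ) ≠ fun _ => (1 : ℂ)},
      star L (θ.1 : L → ℂ) g = star L (θ.1 : L → ℂ) 1 := by
    intro g
    simp only [Subgroup.mem_iInf, hNθ]
  have hNn : (⨅ θ, Nθ θ).Normal := Subgroup.normal_iInf_normal hNθn
  refine ⟨⨅ θ, Nθ θ, hNn, ?_, ?_⟩
  · intro g hgN hgL
    by_contra hgK
    have hne : ((⟨g, hgL⟩ : L) : L ⧸ K) ≠ 1 :=
      fun h => hgK ((QuotientGroup.eq_one_iff _).1 h)
    let _ : Fintype (L ⧸ K) := Fintype.ofFinite _
    have hfin' := finite_irrCharacter (L ⧸ K)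
    let _ : Fintype (IrrCharacter (L ⧸ K)) := Fintype.ofFinite _
    have hval : ∀ χ : IrrCharacter (L ⧸ K),
        (χ : L ⧸ K → ℂ) ((⟨g, hgL⟩ : L) : L ⧸ K) = (χ : L ⧸ K → ℂ) 1 := by
      intro χ
      have hirr : IsIrrCharacter L (fun l : L => (χ : L ⧸ K → ℂ) (l : L ⧸ K)) :=
        Kernel.isIrrCharacter_inflation K χ.2
      have hK' : ∀ k ∈ K, (fun l : L => (χ : L ⧸ K → ℂ) (l : L ⧸ K)) k =
          (fun l : L => (χ : L ⧸ K → ℂ) (l : L ⧸ K)) 1 := by
        intro k hk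
        exact Kernel.inflation_apply_of_mem K _ hk
      by_cases h1 : (fun l : L => (χ : L ⧸ K → ℂ) (l : L ⧸ K)) = fun _ => (1 : ℂ)
      · have e1 := congrFun h1 ⟨g, hgL⟩
        have e2 := congrFun h1 1
        rw [e1]; rw [QuotientGroup.mk_one] at e2; exact e2.symm
      · have h2 := (hNmem g).mp hgN ⟨⟨_, hirr⟩, hK', h1⟩
        have h3 := star_coe L K hP1 _ (char_isClassFunction (isCharacter_of_irr hirr)) hK'
          ⟨g, hgL⟩
        have h4 := star_one L K hP1 _ (char_isClassFunction (isCharacter_of_irr hirr)) hK'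
        simp only at h2 h3 h4
        rw [h4] at h2
        rw [h2] at h3
        rw [QuotientGroup.mk_one] at h3
        exact h3.symm
    have hs1 := Orth.sum_apply_one_mul_of_ne_sum (((⟨g, hgL⟩ : L) : L ⧸ K)) hne
    have hs2 := Orth.sum_apply_one_sq_sum (G := L ⧸ K)
    have hs3 : ∑ χ : IrrCharacter (L ⧸ K),
        (χ : L ⧸ K → ℂ) 1 * (χ : L ⧸ K → ℂ) ((⟨g, hgL⟩ : L) : L ⧸ K)
        = ∑ χ : IrrCharacter (L ⧸ K), (χ : L ⧸ K → ℂ) 1 ^ 2 :=
      Finset.sum_congr rfl (fun χ _ => by rw [hval χ, sq])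
    rw [hs1, hs2] at hs3
    have : (Nat.card (L ⧸ K) : ℂ) ≠ 0 := Nat.cast_ne_zero.mpr Nat.card_pos.ne'
    exact this hs3.symm
  · intro g hg
    rw [hNmem]
    intro θ
    rw [star_of_conj_K L K θ.1 θ.2.1 g hg, star_one L K hP1 _ (hcl θ.1) θ.2.1]

/-- Counting: a subgroup containing all elements none of whose conjugates lies in `L ∖ K` has at
least `|G : L| |K|` elements. -/
theorem card_ge {G : Type u} [Group G] [Finite G] (L : Subgroup G) (K : Subgroup L) [hKn : K.Normal]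
    (M : Subgroup G)
    (hM : ∀ g : G, (∀ x : G, ∀ hx : x⁻¹ * g * x ∈ L, (⟨x⁻¹ * g * x, hx⟩ : L) ∈ K) → g ∈ M) :
    L.index * Nat.card K ≤ Nat.card M := by
  classical
  let Φ : (G ⧸ L) × {z : L // z ∉ K} → G :=
    fun p => Quotient.out p.1 * (p.2.1 : G) * (Quotient.out p.1)⁻¹
  have hcover : ∀ g : G, g ∈ M ∨ g ∈ Set.range Φ := by
    intro g
    by_cases hg : g ∈ M
    · exact Or.inl hg
    · right
      have hneg : ¬ ∀ x : G, ∀ hx : x⁻¹ * g * x ∈ L, (⟨x⁻¹ * g * x, hx⟩ : L) ∈ K :=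
        fun h => hg (hM g h)
      push Not at hneg
      obtain ⟨x, hx, hxK⟩ := hneg
      obtain ⟨m, hm⟩ := QuotientGroup.mk_out_eq_mul L x
      refine ⟨((x : G ⧸ L), ⟨m⁻¹ * ⟨x⁻¹ * g * x, hx⟩ * m⁻¹⁻¹, ?_⟩), ?_⟩
      · intro h
        apply hxK
        have h' := hKn.conj_mem _ h m
        have e : m * (m⁻¹ * ⟨x⁻¹ * g * x, hx⟩ * m⁻¹⁻¹) * m⁻¹ = ⟨x⁻¹ * g * x, hx⟩ := by group
        rwa [e] at h'
      · show Quotient.out (x : G ⧸ L) * ((m⁻¹ * ⟨x⁻¹ * g * x, hx⟩ * m⁻¹⁻¹ : L) : G) *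
          (Quotient.out (x : G ⧸ L))⁻¹ = g
        rw [hm]
        simp only [Subgroup.coe_mul, Subgroup.coe_inv, inv_inv]
        group
  have h1 : Nat.card G ≤ Nat.card M + Nat.card ((G ⧸ L) × {z : L // z ∉ K}) := by
    have hsurj : Function.Surjective
        (fun s : M ⊕ ((G ⧸ L) × {z : L // z ∉ K}) => Sum.elim (fun m : M => (m : G)) Φ s) := by
      intro g
      rcases hcover g with h | ⟨p, hp⟩
      · exact ⟨Sum.inl ⟨g, h⟩, rfl⟩
      · exact ⟨Sum.inr p, hp⟩
    have := Nat.card_le_card_of_surjective _ hsurj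
    rwa [Nat.card_sum] at this
  have h2 : Nat.card K + Nat.card {z : L // z ∉ K} = Nat.card L := by
    rw [← Nat.card_sum]
    exact Nat.card_congr (Equiv.sumCompl (fun z : L => z ∈ K))
  have h3 : L.index * Nat.card L = Nat.card G := Subgroup.index_mul_card L
  have h4 : Nat.card (G ⧸ L) = L.index := rfl
  rw [Nat.card_prod, h4] at h1
  rw [← h3, ← h2, mul_add] at h1
  omega

end Cfsg.Agent.Lib.Helper68.Wielandt
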